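import Mathlib.LinearAlgebra.Matrix.GeneralLinearGroup.Defs
import Mathlib.LinearAlgebra.Matrix.Trace
import Mathlib.FieldTheory.Finite.Basic
import Mathlib.Algebra.CharP.Two

/-!
Products of two conjugates in `GL₂` of a finite field, sorted by trace and determinant.
-/

set_option autoImplicit false

namespace CfsgLib.G2Cover

open Matrix

variable {F : Type*} [Field F]

local notation "M2" => Matrix (Fin 2) (Fin 2) F

/-- The companion matrix of `X² - tX + d`. -/
def compMat (t d : F) : M2 := !![0, -d; 1, t]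

/-- The matrix is not scalar. -/
def NonScalar (A : M2) : Prop := ¬ (A 0 1 = 0 ∧ A 1 0 = 0 ∧ A 0 0 = A 1 1)

theorem nonScalar_of_disc (A : M2) (h : A.trace ^ 2 ≠ 4 * A.det) : NonScalar A := by
  rintro ⟨h1, h2, h3⟩
  apply h
  rw [trace_fin_two, det_fin_two, h1, h2, h3]
  ring

theorem exists_companion (A : M2) (hA : NonScalar A) :
    ∃ P : GL (Fin 2) F, A = P.1 * compMat A.trace A.det * (P⁻¹).1 := by
  obtain ⟨x, y, hxy⟩ : ∃ x y : F,
      x * (A 1 0 * x + A 1 1 * y) - y * (A 0 0 * x + A 0 1 * y) ≠ 0 := by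
    by_cases h10 : A 1 0 = 0
    · by_cases h01 : A 0 1 = 0
      · refine ⟨1, 1, fun h => hA ⟨h01, h10, ?_⟩⟩
        rw [h10, h01] at h
        linear_combination -h
      · exact ⟨0, 1, by simpa using h01⟩
    · exact ⟨1, 0, by simpa using h10⟩
  obtain ⟨P, hP⟩ : ∃ P : GL (Fin 2) F,
      P.1 = !![x, A 0 0 * x + A 0 1 * y; y, A 1 0 * x + A 1 1 * y] := by
    refine ⟨Matrix.GeneralLinearGroup.mkOfDetNeZero _ ?_, rfl⟩
    rw [det_fin_two]
    simp only [of_apply, cons_val', cons_val_zero, cons_val_one, empty_val', cons_val_fin_one]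
    intro h
    exact hxy (by linear_combination h)
  refine ⟨P, ?_⟩
  have h : A * P.1 = P.1 * compMat A.trace A.det := by
    rw [hP]
    ext i j
    fin_cases i <;> fin_cases j <;>
      simp [compMat, Matrix.mul_apply, Fin.sum_univ_two, trace_fin_two, det_fin_two] <;> ring
  rw [← h, mul_assoc, ← Units.val_mul, mul_inv_cancel, Units.val_one, mul_one]

theorem exists_conj_of_trace_det (A B : M2) (hA : NonScalar A) (hB : NonScalar B)
    (ht : A.trace = B.trace) (hd : A.det = B.det) :
    ∃ P : GL (Fin 2) F, A = P.1 * B * (P⁻¹).1 := by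
  obtain ⟨P, hP⟩ := exists_companion A hA
  obtain ⟨Q, hQ⟩ := exists_companion B hB
  refine ⟨P * Q⁻¹, ?_⟩
  rw [hP, ht, hd]
  conv_rhs => rw [hQ]
  simp [Units.val_mul, mul_assoc]

/-- `A` is a product of matrices with traces `t₁`, `t₂` and determinants `d₁`, `d₂`. -/
def SplitsAs (A : M2) (t₁ d₁ t₂ d₂ : F) : Prop :=
  ∃ B C : M2, A = B * C ∧ B.trace = t₁ ∧ B.det = d₁ ∧ C.trace = t₂ ∧ C.det = d₂

theorem SplitsAs.conj {A : M2} {t₁ d₁ t₂ d₂ : F} (h : SplitsAs A t₁ d₁ t₂ d₂) (P : GL (Fin 2) F) :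
    SplitsAs (P.1 * A * (P⁻¹).1) t₁ d₁ t₂ d₂ := by
  obtain ⟨B, C, rfl, h1, h2, h3, h4⟩ := h
  refine ⟨P.1 * B * (P⁻¹).1, P.1 * C * (P⁻¹).1, ?_, ?_, ?_, ?_, ?_⟩
  · simp [mul_assoc]
  · rw [Matrix.trace_units_conj, h1]
  · rw [Matrix.det_units_conj, h2]
  · rw [Matrix.trace_units_conj, h3]
  · rw [Matrix.det_units_conj, h4]

/-- A conic with a point splits the companion matrix. -/
theorem splitsAs_comp {T D t d k r c : F} (hd : d ≠ 0)
    (h : r * (t - r) - c * (D * c + T * r - k) = d) :
    SplitsAs (compMat T D) t d (k / d) (D / d) := by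
  set B : M2 := !![r, D * c + T * r - k; c, t - r] with hB
  have hdet : B.det = d := by rw [hB, det_fin_two]; simp; linear_combination h
  refine ⟨B, d⁻¹ • (B.adjugate * compMat T D), ?_, ?_, hdet, ?_, ?_⟩
  · rw [Matrix.mul_smul, ← mul_assoc, Matrix.mul_adjugate, hdet, Matrix.smul_mul, one_mul, smul_smul,
      inv_mul_cancel₀ hd, one_smul]
  · rw [hB, trace_fin_two]; simp
  · rw [Matrix.trace_smul, hB, Matrix.adjugate_fin_two]
    simp [compMat, trace_fin_two, Matrix.mul_apply, Fin.sum_univ_two]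
    field_simp
    ring
  · rw [Matrix.det_smul, det_mul, det_adjugate, hdet, Fintype.card_fin]
    simp [compMat, det_fin_two]
    field_simp

theorem splitsAs_of_point {A : M2} (hA : NonScalar A) {t d k r c : F} (hd : d ≠ 0)
    (h : r * (t - r) - c * (A.det * c + A.trace * r - k) = d) :
    SplitsAs A t d (k / d) (A.det / d) := by
  obtain ⟨P, hP⟩ := exists_companion A hA
  have := (splitsAs_comp (T := A.trace) (D := A.det) hd h).conj P
  rwa [← hP] at this

theorem sq_surjective_two [Finite F] [CharP F 2] (a : F) : ∃ r : F, r ^ 2 = a := by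
  have : Function.Surjective fun r : F => r ^ 2 :=
    Finite.surjective_of_injective fun x y (h : x ^ 2 = y ^ 2) =>
      frobenius_inj F 2 (by simpa [frobenius_def] using h)
  exact this a

/-- In characteristic two a matrix of non-zero trace splits in every way. -/
theorem splitsAs_two [Finite F] [CharP F 2] {A : M2} (hT : A.trace ≠ 0) {t d k : F} (hd : d ≠ 0) :
    SplitsAs A t d (k / d) (A.det / d) := by
  have hA : NonScalar A := by
    rintro ⟨-, -, h⟩
    apply hT
    rw [trace_fin_two, h, CharTwo.add_self_eq_zero]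
  obtain ⟨c, hc⟩ : ∃ c, A.trace * c = t := ⟨t / A.trace, by field_simp⟩
  obtain ⟨r, hr⟩ := sq_surjective_two (-(A.det * c ^ 2 - k * c + d))
  exact splitsAs_of_point hA hd (r := r) (c := c) (by linear_combination (-r) * hc - hr)

/-- A matrix with a double eigenvalue splits. -/
theorem splitsAs_double {A : M2} (hA : NonScalar A) {s t d k : F} (hs : A.trace = 2 * s)
    (hD : A.det = s ^ 2) (hd : d ≠ 0) (h : t * s ≠ k ∨ ∃ w, w ^ 2 - t * w + d = 0) :
    SplitsAs A t d (k / d) (A.det / d) := by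
  rcases h with h | ⟨w, hw⟩
  · obtain ⟨c, hc⟩ : ∃ c, (t * s - k) * c = -d := ⟨-d / (t * s - k), by
      rw [mul_div_cancel₀ _ (sub_ne_zero.2 h)]⟩
    refine splitsAs_of_point hA hd (r := -(s * c)) (c := c) ?_
    rw [hs, hD]
    linear_combination (-1 : F) * hc
  · refine splitsAs_of_point hA hd (r := w) (c := 0) ?_
    linear_combination (-1 : F) * hw

/-- In odd characteristic a matrix with distinct eigenvalues splits in every way. -/
theorem splitsAs_odd [Fintype F] (hodd : Fintype.card F % 2 = 1) {A : M2}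
    (hA : A.trace ^ 2 ≠ 4 * A.det) {t d k : F} (hd : d ≠ 0) :
    SplitsAs A t d (k / d) (A.det / d) := by
  have h2 : (2 : F) ≠ 0 := Ring.two_ne_zero fun h => by
    have := FiniteField.even_card_iff_char_two.1 h
    omega
  open Polynomial in
  set f : F[X] := X ^ 2 with hf
  set T := A.trace
  set D := A.det
  open Polynomial in
  set g : F[X] := C (4 * D - T ^ 2) * X ^ 2 + C (2 * t * T - 4 * k) * X + C (4 * d - t ^ 2) with hg
  have hlead : (4 * D - T ^ 2) ≠ 0 := sub_ne_zero.2 (Ne.symm hA)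
  obtain ⟨R, c, hRc⟩ := FiniteField.exists_root_sum_quadratic (f := f) (g := g)
    (by rw [hf, Polynomial.degree_X_pow]; rfl) (by rw [hg]; compute_degree!) hodd
  simp only [hf, hg, Polynomial.eval_pow, Polynomial.eval_X, Polynomial.eval_add,
    Polynomial.eval_mul, Polynomial.eval_C] at hRc
  refine splitsAs_of_point (nonScalar_of_disc A hA) hd (r := (R - T * c + t) / 2) (c := c) ?_
  field_simp
  linear_combination (-1 : F) * hRc

theorem splitsAs_scalar {A : M2} (h : ¬ NonScalar A) {B : M2} {s : F} (hB : B.det ≠ 0)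
    (hs : A 0 0 = s) :
    SplitsAs A B.trace B.det (s * B.trace / B.det) (A.det / B.det) := by
  obtain ⟨h1, h2, h3⟩ := not_not.1 h
  have hA : A = s • (1 : M2) := by
    ext i j
    fin_cases i <;> fin_cases j <;> simp [h1, h2, hs, ← h3]
  refine ⟨B, (s / B.det) • B.adjugate, ?_, rfl, rfl, ?_, ?_⟩
  · rw [Matrix.mul_smul, Matrix.mul_adjugate, smul_smul, div_mul_cancel₀ _ hB, hA]
  · rw [Matrix.trace_smul, Matrix.adjugate_fin_two, smul_eq_mul]
    simp [trace_fin_two]
    field_simp
    ring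
  · rw [Matrix.det_smul, det_adjugate, Fintype.card_fin, hA, Matrix.det_smul, det_one, Fintype.card_fin]
    field_simp
    ring

end CfsgLib.G2Cover
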