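import Cfsg.Agent.G2Cover.Unipotent

/-!
The decomposition `V⁻ L V` of the elements of `G₂` with a non-zero corner coefficient, and conjugates
with a prescribed corner coefficient.
-/

set_option autoImplicit false
set_option maxHeartbeats 1000000

namespace CfsgLib.G2Cover

open Matrix Cfsg.Lie CfsgLib.G2Oct

variable {F : Type*} [Field F] [Fintype F]

/-- The singular vector fixed by the radical. -/
def vTop (F : Type*) [Field F] : Fin 8 → F := Pi.single 1 1

/-- The opposite singular vector. -/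
def vBot (F : Type*) [Field F] : Fin 8 → F := Pi.single 4 1

theorem rootEl_mem_Rad {r : Fin 12}
    (h : (rootE r ++ rootS r).all fun e => decide (deg e.2.1 < deg e.1) = true) (t : F) :
    rootEl r t ∈ Rad F := by
  intro i j hij
  have hzero : ∀ A : Sp, (∀ e ∈ A, deg e.2.1 < deg e.1) → ev F A i j = 0 := by
    intro A hA
    have h0 : ev F A i j = (ev F A *ᵥ Pi.single j 1) i := by rw [Matrix.mulVec_single_one]; rfl
    rw [h0, ev_mulVec]
    refine List.sum_eq_zero fun x hx => ?_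
    obtain ⟨e, he, rfl⟩ := List.mem_map.1 hx
    split_ifs with h1
    · have h2 : e.2.1 ≠ j := by
        rintro rfl
        exact absurd (h1 ▸ hA e he) (not_lt.2 hij)
      simp [h2]
    · rfl
  rw [List.all_append, Bool.and_eq_true, List.all_eq_true, List.all_eq_true] at h
  show rootMat F r t i j = _
  rw [rootMat, Matrix.add_apply, Matrix.add_apply, Matrix.smul_apply, Matrix.smul_apply, ev_oneS,
    hzero _ (fun e he => by simpa using h.1 e he), hzero _ (fun e he => by simpa using h.2 e he),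
    smul_zero, smul_zero, add_zero, add_zero]

theorem pow_rad_vTop {u : ↥(G2 F)} (hu : u ∈ Rad F) : g2Mat u *ᵥ vTop F = vTop F := by
  rw [vTop, Matrix.mulVec_single_one]
  funext i
  show g2Mat u i 1 = _
  rw [hu i 1 (by revert i; decide), Pi.single_apply, one_apply]

/-- The product of five root elements of the radical. -/
def radEl (s a b c e : F) : ↥(G2 F) :=
  rootEl 11 a * (rootEl 6 b * (rootEl 8 s * (rootEl 9 c * rootEl 4 e)))

theorem radEl_mem (s a b c e : F) : radEl s a b c e ∈ Rad F :=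
  mul_mem (rootEl_mem_Rad (by decide) _) (mul_mem (rootEl_mem_Rad (by decide) _)
    (mul_mem (rootEl_mem_Rad (by decide) _) (mul_mem (rootEl_mem_Rad (by decide) _)
      (rootEl_mem_Rad (by decide) _))))

omit [Fintype F] in
theorem g2Mat_rootEl (r : Fin 12) (t : F) (x : Fin 8 → F) :
    g2Mat (rootEl r t) *ᵥ x = rootMat F r t *ᵥ x := rfl

/-- The radical is transitive on the singular trace-zero vectors with corner coefficient one. -/
theorem exists_rad_of_vec {x : Fin 8 → F} (hT : octT x = 0) (hQ : octQ x = 0) (hx : x 4 = 1) :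
    ∃ u ∈ Rad F, g2Mat u *ᵥ vBot F = x := by
  refine ⟨radEl (x 0 + x 2 * x 3) (x 6 + x 2 * x 2 * x 3 + (x 0 + x 2 * x 3) * x 2)
    (x 5 - (x 0 + x 2 * x 3) * x 3) (-x 2) (x 3), radEl_mem _ _ _ _ _, ?_⟩
  have h7 : x 7 = -x 0 := by rw [octT] at hT; linear_combination hT
  have h1 : x 1 = -(x 0 * x 0) - x 2 * x 5 - x 3 * x 6 := by
    rw [octQ, h7, hx] at hQ; linear_combination -hQ
  funext i
  simp only [radEl, g2Mat_mul, ← Matrix.mulVec_mulVec, g2Mat_rootEl, rootMat_mulVec_apply]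
  fin_cases i <;> simp [rootE, rootS, vBot, Pi.single_apply, hx, h7, h1] <;> ring

omit [Fintype F] in
theorem swap_vBot : g2Mat (swapEl : ↥(G2 F)) *ᵥ vBot F = -vTop F := by
  rw [g2Mat_swapEl, ev_mulVec]
  funext i
  fin_cases i <;> simp [appS, swapS, vBot, vTop]

omit [Fintype F] in
theorem swap_vTop : g2Mat (swapEl : ↥(G2 F)) *ᵥ vTop F = -vBot F := by
  rw [g2Mat_swapEl, ev_mulVec]
  funext i
  fin_cases i <;> simp [appS, swapS, vBot, vTop]

omit [Fintype F] in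
theorem octTQ_single (i : Fin 8) (h : i ≠ 0 ∧ i ≠ 7) :
    octT (Pi.single i (1 : F)) = 0 ∧ octQ (Pi.single i (1 : F)) = 0 := by
  obtain ⟨h0, h7⟩ := h
  constructor
  · simp [octT, Pi.single_apply, Ne.symm h0, Ne.symm h7]
  · fin_cases i <;> simp [octQ, Pi.single_apply]

/-- The opposite radical is transitive as well. -/
theorem exists_radNeg_of_vec {x : Fin 8 → F} (hT : octT x = 0) (hQ : octQ x = 0) (hx : x 1 = 1) :
    ∃ u ∈ RadNeg F, g2Mat u *ᵥ vTop F = x := by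
  set x' := -(g2Mat (swapEl : ↥(G2 F)) *ᵥ x) with hx'
  have e4 : x' 4 = 1 := by
    rw [hx', g2Mat_swapEl, ev_mulVec]; simp [appS, swapS, hx]
  have eT : octT x' = 0 := by
    have : octT x' = -octT (g2Mat (swapEl : ↥(G2 F)) *ᵥ x) := by simp [hx', octT]; ring
    rw [this, octT_g2Mat, hT, neg_zero]
  have eQ : octQ x' = 0 := by
    have : octQ x' = octQ (g2Mat (swapEl : ↥(G2 F)) *ᵥ x) := by simp [hx', octQ]
    rw [this, octQ_g2Mat, hQ]
  obtain ⟨u, hu, hux⟩ := exists_rad_of_vec eT eQ e4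
  refine ⟨swapEl * u * swapEl, ?_, ?_⟩
  · rw [mem_RadNeg]
    rwa [show swapEl * (swapEl * u * swapEl) * swapEl = (swapEl * swapEl) * u * (swapEl * swapEl) by group,
      swapEl_mul_self, one_mul, mul_one]
  · rw [g2Mat_mul, g2Mat_mul, ← Matrix.mulVec_mulVec, ← Matrix.mulVec_mulVec, swap_vTop, Matrix.mulVec_neg,
      hux, hx', neg_neg, Matrix.mulVec_mulVec, ← g2Mat_mul, swapEl_mul_self, g2Mat_one, Matrix.one_mulVec]

omit [Fintype F] in
theorem idem_of_tops : zornMul (vTop F) (vBot F) = idemE F := by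
  funext i
  fin_cases i <;> simp [vTop, vBot, zornMul, zA, zB, dot3, cross3, idemE, zMk, Pi.single_apply]

omit [Fintype F] in
theorem zornMul_smul_smul (a b : F) (x y : Fin 8 → F) :
    zornMul (a • x) (b • y) = (a * b) • zornMul x y := by
  rw [zornMul_smul_left, zornMul_smul_right, smul_smul]

/-- An element with non-zero corner coefficient lies in `V⁻ L V`. -/
theorem exists_decomp (g : ↥(G2 F)) (h : g2Mat g 1 1 ≠ 0) :
    ∃ y ∈ RadNeg F, ∃ A : GL (Fin 2) F, ∃ u ∈ Rad F,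
      A.1.det = (g2Mat g 1 1)⁻¹ ∧ g = y * levi A * u := by
  set a := g2Mat g 1 1 with ha
  set w := g2Mat g *ᵥ vTop F with hw
  have hw1 : w 1 = a := by rw [hw, vTop, Matrix.mulVec_single_one]; rfl
  have wT : octT w = 0 := by rw [hw, octT_g2Mat]; exact (octTQ_single 1 (by decide)).1
  have wQ : octQ w = 0 := by rw [hw, octQ_g2Mat]; exact (octTQ_single 1 (by decide)).2
  obtain ⟨y, hy, hyw⟩ := exists_radNeg_of_vec (x := a⁻¹ • w)
    (by simp only [octT, Pi.smul_apply, smul_eq_mul] at wT ⊢; linear_combination a⁻¹ * wT)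
    (by simp only [octQ, Pi.smul_apply, smul_eq_mul] at wQ ⊢; linear_combination a⁻¹ * a⁻¹ * wQ)
    (by simp [hw1, h])
  set l₁ := y⁻¹ * g with hl₁
  have hl₁v : g2Mat l₁ *ᵥ vTop F = a • vTop F := by
    rw [hl₁, g2Mat_mul, ← Matrix.mulVec_mulVec, ← hw,
      show w = a • (g2Mat y *ᵥ vTop F) by rw [hyw, smul_smul, mul_inv_cancel₀ h, one_smul],
      Matrix.mulVec_smul, Matrix.mulVec_mulVec, g2Mat_inv_mul, Matrix.one_mulVec]
  set f := g2Mat l₁ *ᵥ vBot F with hf
  have fT : octT f = 0 := by rw [hf, octT_g2Mat]; exact (octTQ_single 4 (by decide)).1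
  have fQ : octQ f = 0 := by rw [hf, octQ_g2Mat]; exact (octTQ_single 4 (by decide)).2
  have fB : a * f 4 = 1 := by
    have h1 := octB_g2Mat l₁ (vTop F) (vBot F)
    rw [hl₁v, ← hf, octB_smul_left] at h1
    have e1 : octB (vTop F) f = -f 4 := by simp [octB, octQ, vTop, Pi.single_apply]
    have e2 : octB (vTop F) (vBot F) = -1 := by simp [octB, octQ, vTop, vBot, Pi.single_apply]
    rw [e1, e2] at h1
    linear_combination -h1
  obtain ⟨u, hu, huf⟩ := exists_rad_of_vec (x := a • f)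
    (by simp only [octT, Pi.smul_apply, smul_eq_mul] at fT ⊢; linear_combination a * fT)
    (by simp only [octQ, Pi.smul_apply, smul_eq_mul] at fQ ⊢; linear_combination a * a * fQ)
    (by simpa using fB)
  set l := u⁻¹ * l₁ with hl
  have hlv : g2Mat l *ᵥ vTop F = a • vTop F := by
    rw [hl, g2Mat_mul, ← Matrix.mulVec_mulVec, hl₁v, Matrix.mulVec_smul, pow_rad_vTop (inv_mem hu)]
  have hlf : g2Mat l *ᵥ vBot F = a⁻¹ • vBot F := by
    rw [hl, g2Mat_mul, ← Matrix.mulVec_mulVec, ← hf,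
      show f = a⁻¹ • (g2Mat u *ᵥ vBot F) by rw [huf, smul_smul, inv_mul_cancel₀ h, one_smul],
      Matrix.mulVec_smul, Matrix.mulVec_mulVec, g2Mat_inv_mul, Matrix.one_mulVec]
  have hle : g2Mat l *ᵥ idemE F = idemE F := by
    rw [← idem_of_tops, g2Mat_zornMul, hlv, hlf, zornMul_smul_smul, mul_inv_cancel₀ h, one_smul]
  obtain ⟨M, hM⟩ := exists_sl3_of_fix hle
  rw [← hM, sl3G2_mulVec, vTop, show (Pi.single 1 1 : Fin 8 → F) = zMk 0 ![1, 0, 0] 0 0 by
    funext i; fin_cases i <;> simp [zMk], sl3Lin_apply] at hlv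
  rw [← hM, sl3G2_mulVec, vBot, show (Pi.single 4 1 : Fin 8 → F) = zMk 0 0 ![1, 0, 0] 0 by
    funext i; fin_cases i <;> simp [zMk], sl3Lin_apply] at hlf
  have c0 : M.1 0 0 = a := by
    simpa [zMk, mulVec, dotProduct, Fin.sum_univ_three, -Matrix.SpecialLinearGroup.coe_inv] using congrFun hlv 1
  have c1 : M.1 1 0 = 0 := by
    simpa [zMk, mulVec, dotProduct, Fin.sum_univ_three, -Matrix.SpecialLinearGroup.coe_inv] using congrFun hlv 2
  have c2 : M.1 2 0 = 0 := by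
    simpa [zMk, mulVec, dotProduct, Fin.sum_univ_three, -Matrix.SpecialLinearGroup.coe_inv] using congrFun hlv 3
  have r0 : (M⁻¹).1 0 0 = a⁻¹ := by
    simpa [zMk, mulVec, dotProduct, Fin.sum_univ_three, -Matrix.SpecialLinearGroup.coe_inv] using congrFun hlf 4
  have r1 : (M⁻¹).1 0 1 = 0 := by
    simpa [zMk, mulVec, dotProduct, Fin.sum_univ_three, -Matrix.SpecialLinearGroup.coe_inv] using congrFun hlf 5
  have r2 : (M⁻¹).1 0 2 = 0 := by
    simpa [zMk, mulVec, dotProduct, Fin.sum_univ_three, -Matrix.SpecialLinearGroup.coe_inv] using congrFun hlf 6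
  have hprod : ∀ j, ((M⁻¹ * M).1) 0 j = if 0 = j then 1 else 0 := fun j => by
    rw [inv_mul_cancel, Matrix.SpecialLinearGroup.coe_one, one_apply]
  have c01 : M.1 0 1 = 0 := by
    have := hprod 1
    rw [Matrix.SpecialLinearGroup.coe_mul, Matrix.mul_apply, Fin.sum_univ_three, r0, r1, r2] at this
    simpa [h] using this
  have c02 : M.1 0 2 = 0 := by
    have := hprod 2
    rw [Matrix.SpecialLinearGroup.coe_mul, Matrix.mul_apply, Fin.sum_univ_three, r0, r1, r2] at this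
    simpa [h] using this
  have hdet : M.1 1 1 * M.1 2 2 - M.1 1 2 * M.1 2 1 = a⁻¹ := by
    have := M.2
    rw [det_fin_three, c0, c1, c2, c01, c02] at this
    field_simp
    linear_combination this
  obtain ⟨A, hA⟩ : ∃ A : GL (Fin 2) F, A.1 = !![M.1 1 1, M.1 1 2; M.1 2 1, M.1 2 2] :=
    ⟨Matrix.GeneralLinearGroup.mkOfDetNeZero _ (by rw [det_fin_two]; simpa [hdet] using inv_ne_zero h), rfl⟩
  have hAd : A.1.det = a⁻¹ := by rw [hA, det_fin_two]; simpa using hdet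
  have hlA : levi A = l := by
    rw [← hM]
    refine congrArg sl3G2 (Subtype.ext (show leviMat A.1 = M.1 from ?_))
    rw [leviMat, hAd, inv_inv, hA]
    ext i j
    fin_cases i <;> fin_cases j <;> simp [c0, c1, c2, c01, c02]
  refine ⟨y, hy, A, (levi A)⁻¹ * u * levi A, ?_, hAd, ?_⟩
  · have := levi_conj_mem A⁻¹ hu
    rwa [map_inv, inv_inv] at this
  · rw [hlA, hl, hl₁]; group

omit [Fintype F] in
theorem exists_sl3_first {u : Fin 3 → F} (hu : u ≠ 0) :
    ∃ M : Matrix.SpecialLinearGroup (Fin 3) F, M.1 *ᵥ ![1, 0, 0] = u := by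
  obtain ⟨M, hM⟩ := exists_sl3_mulVec hu
  obtain ⟨N, hN⟩ := exists_sl3_mulVec (u := (![1, 0, 0] : Fin 3 → F)) (fun e => one_ne_zero (congrFun e 0))
  refine ⟨M * N⁻¹, ?_⟩
  conv_lhs => rw [← hN]
  rw [Matrix.mulVec_mulVec, ← Matrix.SpecialLinearGroup.coe_mul, mul_assoc, inv_mul_cancel, mul_one, hM]

/-- A non-identity element has a conjugate moving the singular line. -/
theorem exists_conj_moving {g : ↥(G2 F)} (hg : g ≠ 1) :
    ∃ h : ↥(G2 F), ¬ ∃ c : F, g2Mat (h * g * h⁻¹) *ᵥ vTop F = c • vTop F := by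
  by_contra hno
  push Not at hno
  have orb : ∀ h : ↥(G2 F), ∃ c : F, g2Mat g *ᵥ (g2Mat h *ᵥ vTop F) = c • (g2Mat h *ᵥ vTop F) := by
    intro h
    obtain ⟨c, hc⟩ := hno h⁻¹
    refine ⟨c, ?_⟩
    have := congrArg (g2Mat h *ᵥ ·) hc
    simp only [Matrix.mulVec_mulVec, Matrix.mulVec_smul, ← g2Mat_mul] at this ⊢
    rwa [show h * (h⁻¹ * g * h⁻¹⁻¹) = g * h by group] at this
  have hneg : ∀ x : Fin 8 → F, (∃ c : F, g2Mat g *ᵥ x = c • x) → ∃ c : F, g2Mat g *ᵥ (-x) = c • (-x) :=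
    fun x ⟨c, hc⟩ => ⟨c, by rw [Matrix.mulVec_neg, hc, smul_neg]⟩
  have hA : ∀ a : Fin 3 → F, a ≠ 0 → ∃ c : F, g2Mat g *ᵥ zMk 0 a 0 0 = c • zMk 0 a 0 0 := by
    intro a ha
    obtain ⟨M, hM⟩ := exists_sl3_first ha
    obtain ⟨c, hc⟩ := orb (sl3G2 M)
    refine ⟨c, ?_⟩
    have e : g2Mat (sl3G2 M) *ᵥ vTop F = zMk 0 a 0 0 := by
      rw [vTop, show (Pi.single 1 1 : Fin 8 → F) = zMk 0 ![1, 0, 0] 0 0 by
        funext i; fin_cases i <;> simp [zMk], sl3G2_mulVec, sl3Lin_apply, hM, Matrix.mulVec_zero]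
    rwa [e] at hc
  have hB : ∀ b : Fin 3 → F, b ≠ 0 → ∃ c : F, g2Mat g *ᵥ zMk 0 0 b 0 = c • zMk 0 0 b 0 := by
    intro b hb
    obtain ⟨M, hM⟩ := exists_sl3_first hb
    obtain ⟨c, hc⟩ := orb (swapEl * sl3G2 M)
    have e : g2Mat (swapEl * sl3G2 M) *ᵥ vTop F = -zMk 0 0 b 0 := by
      rw [g2Mat_mul, ← Matrix.mulVec_mulVec, vTop, show (Pi.single 1 1 : Fin 8 → F) = zMk 0 ![1, 0, 0] 0 0 by
        funext i; fin_cases i <;> simp [zMk], sl3G2_mulVec, sl3Lin_apply, hM, Matrix.mulVec_zero,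
        g2Mat_swapEl, ev_swapS]
      funext i; fin_cases i <;> simp [zMk]
    rw [e] at hc
    obtain ⟨c', hc'⟩ := hneg _ ⟨c, hc⟩
    exact ⟨c', by rwa [neg_neg] at hc'⟩
  -- one scalar on each of the two three-spaces
  have scal : ∀ (T : (Fin 3 → F) → (Fin 8 → F)), (∀ a b, T (a + b) = T a + T b) →
      (∀ (k : F) a, T (k • a) = k • T a) → Function.Injective T →
      (∀ a, a ≠ 0 → ∃ c : F, g2Mat g *ᵥ T a = c • T a) → ∃ c : F, ∀ a, g2Mat g *ᵥ T a = c • T a := by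
    intro T hadd hsm hinj hev
    have h0 : T 0 = 0 := by simpa using hsm 0 0
    obtain ⟨c₀, h₀⟩ := hev ![1, 0, 0] (fun e => one_ne_zero (congrFun e 0))
    obtain ⟨c₁, h₁⟩ := hev ![0, 1, 0] (fun e => one_ne_zero (congrFun e 1))
    obtain ⟨c₂, h₂⟩ := hev ![0, 0, 1] (fun e => one_ne_zero (congrFun e 2))
    obtain ⟨c, hc⟩ := hev ![1, 1, 1] (fun e => one_ne_zero (congrFun e 0))
    have e : ∀ a : Fin 3 → F, T a = a 0 • T ![1, 0, 0] + a 1 • T ![0, 1, 0] + a 2 • T ![0, 0, 1] := by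
      intro a
      rw [← hsm, ← hsm, ← hsm, ← hadd, ← hadd]
      congr 1; funext i; fin_cases i <;> simp
    have e' : T ![c₀, c₁, c₂] = T ![c, c, c] := by
      have h3 := hc
      rw [e ![1, 1, 1]] at h3
      simp [Matrix.mulVec_add, h₀, h₁, h₂] at h3
      rw [e ![c₀, c₁, c₂], e ![c, c, c]]
      simpa [smul_smul] using h3
    have he := hinj e'
    have q0 : c₀ = c := congrFun he 0
    have q1 : c₁ = c := congrFun he 1
    have q2 : c₂ = c := congrFun he 2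
    refine ⟨c, fun a => ?_⟩
    rw [e a, Matrix.mulVec_add, Matrix.mulVec_add, Matrix.mulVec_smul, Matrix.mulVec_smul,
      Matrix.mulVec_smul, h₀, h₁, h₂, q0, q1, q2, smul_add, smul_add, smul_comm c, smul_comm c, smul_comm c]
  obtain ⟨c, hcA⟩ := scal (fun a => zMk 0 a 0 0)
    (fun a b => by funext i; fin_cases i <;> simp [zMk])
    (fun k a => by funext i; fin_cases i <;> simp [zMk])
    (fun a b h => (zMk_inj.1 h).2.1) hA
  obtain ⟨c', hcB⟩ := scal (fun b => zMk 0 0 b 0)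
    (fun a b => by funext i; fin_cases i <;> simp [zMk])
    (fun k a => by funext i; fin_cases i <;> simp [zMk])
    (fun a b h => (zMk_inj.1 h).2.2.1) hB
  -- a mixed singular vector in the orbit
  obtain ⟨u, hu, hux⟩ := exists_rad_of_vec (F := F) (x := zMk 0 ![0, 0, 1] ![1, 0, 0] 0)
    (by simp [octT, zMk]) (by simp [octQ, zMk]) (by simp [zMk])
  obtain ⟨k, hk⟩ : ∃ k : F, g2Mat g *ᵥ zMk 0 ![0, 0, 1] ![1, 0, 0] 0 = k • zMk 0 ![0, 0, 1] ![1, 0, 0] 0 := by
    obtain ⟨k, hk⟩ := orb (u * swapEl)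
    rw [g2Mat_mul, ← Matrix.mulVec_mulVec, swap_vTop, Matrix.mulVec_neg, hux] at hk
    obtain ⟨k', hk'⟩ := hneg _ ⟨k, hk⟩
    exact ⟨k', by rwa [neg_neg] at hk'⟩
  rw [show (zMk 0 ![0, 0, 1] ![1, 0, 0] 0 : Fin 8 → F) = zMk 0 ![0, 0, 1] 0 0 + zMk 0 0 ![1, 0, 0] 0 by
    funext i; fin_cases i <;> simp [zMk], Matrix.mulVec_add, hcA, hcB] at hk
  have hk3 := congrFun hk 3
  have hk4 := congrFun hk 4
  simp [zMk] at hk3 hk4
  obtain rfl : c' = c := hk4.trans hk3.symm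
  -- the products
  have m1 := g2Mat_zornMul g (zMk 0 ![1, 0, 0] 0 0) (zMk 0 0 ![1, 0, 0] 0)
  have m2 := g2Mat_zornMul g (zMk 0 ![1, 0, 0] 0 0) (zMk 0 ![0, 1, 0] 0 0)
  have eE : zornMul (zMk (F := F) 0 ![1, 0, 0] 0 0) (zMk 0 0 ![1, 0, 0] 0) = idemE F := by
    rw [zornMul_zMk]; funext i; fin_cases i <;> simp [zMk, dot3, cross3, idemE]
  have eC : zornMul (zMk (F := F) 0 ![1, 0, 0] 0 0) (zMk 0 ![0, 1, 0] 0 0) = zMk 0 0 ![0, 0, 1] 0 := by
    rw [zornMul_zMk]; funext i; fin_cases i <;> simp [zMk, dot3, cross3]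
  rw [hcA, hcB, zornMul_smul_smul, eE] at m1
  rw [hcA, hcA, zornMul_smul_smul, eC, hcB] at m2
  have hsq : c' * c' = c' := by
    have := congrFun m2 6
    simpa [zMk] using this.symm
  have hne : c' ≠ 0 := fun h0 => by
    have h1 := hcA ![1, 0, 0]
    rw [h0, zero_smul] at h1
    have h2 := g2Mat_inj g (h1.trans (Matrix.mulVec_zero _).symm)
    exact one_ne_zero (α := F) (by simpa [zMk] using congrFun h2 1)
  obtain rfl : c' = 1 := mul_left_cancel₀ hne (by rw [hsq, mul_one])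
  rw [one_mul, one_smul] at m1
  have mF := g2Mat_idemF m1
  refine hg (mulVec_ext' fun x => ?_)
  have e : x = x 0 • idemE F + x 7 • idemF F + zMk 0 (zA F x) 0 0 + zMk 0 0 (zB F x) 0 := by
    funext i; fin_cases i <;> simp [idemE, idemF, zMk, zA, zB]
  rw [g2Mat_one, Matrix.one_mulVec]
  conv_lhs => rw [e, Matrix.mulVec_add, Matrix.mulVec_add, Matrix.mulVec_add, Matrix.mulVec_smul,
    Matrix.mulVec_smul, m1, mF, hcA, hcB, one_smul, one_smul, ← e]

/-- A conjugate with any non-zero corner coefficient, moving the singular line. -/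
theorem exists_conj_corner {g : ↥(G2 F)} (hg : g ≠ 1) (a : F) :
    ∃ h : ↥(G2 F), g2Mat (h * g * h⁻¹) 1 1 = a ∧
      ¬ ∃ c : F, g2Mat (h * g * h⁻¹) *ᵥ vTop F = c • vTop F := by
  obtain ⟨h, hh⟩ := exists_conj_moving hg
  set g' := h * g * h⁻¹ with hg'
  set w := g2Mat g' *ᵥ vTop F with hw
  have wT : octT w = 0 := by rw [hw, octT_g2Mat]; exact (octTQ_single 1 (by decide)).1
  have wQ : octQ w = 0 := by rw [hw, octQ_g2Mat]; exact (octTQ_single 1 (by decide)).2
  have h7 : w 7 = -w 0 := by rw [octT] at wT; linear_combination wT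
  obtain ⟨x0, x2, x3, x5, x6, hx⟩ : ∃ x0 x2 x3 x5 x6 : F,
      w 4 * (-(x0 * x0) - x2 * x5 - x3 * x6) + w 1 + w 5 * x2 + w 6 * x3 + w 2 * x5 + w 3 * x6 +
        2 * w 0 * x0 = a := by
    by_cases h4 : w 4 = 0
    · by_cases h5 : w 5 = 0
      · by_cases h6 : w 6 = 0
        · by_cases h2 : w 2 = 0
          · by_cases h3 : w 3 = 0
            · exfalso
              refine hh ⟨w 1, ?_⟩
              have h0 : w 0 = 0 := by
                rw [octQ, h7, h4, h5, h6, h2, h3] at wQ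
                have : w 0 * w 0 = 0 := by linear_combination -wQ
                exact mul_self_eq_zero.1 this
              funext i
              fin_cases i <;> simp [vTop, h0, h2, h3, h4, h5, h6, h7]
            · exact ⟨0, 0, 0, 0, (a - w 1) / w 3, by field_simp; rw [h4, h5, h6, h2]; ring⟩
          · exact ⟨0, 0, 0, (a - w 1) / w 2, 0, by field_simp; rw [h4, h5, h6]; ring⟩
        · exact ⟨0, 0, (a - w 1) / w 6, 0, 0, by field_simp; rw [h4, h5]; ring⟩
      · exact ⟨0, (a - w 1) / w 5, 0, 0, 0, by field_simp; rw [h4]; ring⟩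
    · refine ⟨0, (w 2 - 1) / w 4, 0, a - w 1 - w 5 * ((w 2 - 1) / w 4), 0, ?_⟩
      field_simp
      ring
  obtain ⟨u, hu, hux⟩ := exists_rad_of_vec (F := F)
    (x := ![x0, -(x0 * x0) - x2 * x5 - x3 * x6, x2, x3, 1, x5, x6, -x0])
    (by simp [octT]) (by simp [octQ]; ring) (by simp)
  have hu' : g2Mat u⁻¹ *ᵥ vTop F = vTop F := pow_rad_vTop (inv_mem hu)
  refine ⟨u⁻¹ * h, ?_, ?_⟩
  · have e : u⁻¹ * h * g * (u⁻¹ * h)⁻¹ = u⁻¹ * g' * u := by rw [hg']; group
    have e1 : g2Mat (u⁻¹ * g' * u) *ᵥ vTop F = g2Mat u⁻¹ *ᵥ w := by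
      rw [g2Mat_mul, g2Mat_mul, ← Matrix.mulVec_mulVec, ← Matrix.mulVec_mulVec, pow_rad_vTop hu, ← hw]
    have e2 : g2Mat (u⁻¹ * g' * u) 1 1 = -octB (g2Mat (u⁻¹ * g' * u) *ᵥ vTop F) (vBot F) := by
      rw [vTop, Matrix.mulVec_single_one]
      simp [octB, octQ, vBot, Pi.single_apply]
    have e3 : octB (g2Mat u⁻¹ *ᵥ w) (vBot F) = octB w (g2Mat u *ᵥ vBot F) := by
      have h1 := octB_g2Mat u (g2Mat u⁻¹ *ᵥ w) (vBot F)
      rw [Matrix.mulVec_mulVec, g2Mat_mul_inv, Matrix.one_mulVec] at h1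
      exact h1.symm
    rw [e, e2, e1, e3, hux, ← hx]
    simp [octB, octQ, h7]
    ring
  · rintro ⟨c, hc⟩
    refine hh ⟨c, ?_⟩
    have := congrArg (g2Mat u *ᵥ ·) hc
    simp only [Matrix.mulVec_smul, pow_rad_vTop hu, Matrix.mulVec_mulVec, ← g2Mat_mul] at this
    rw [show u * (u⁻¹ * h * g * (u⁻¹ * h)⁻¹) = g' * u by rw [hg']; group, g2Mat_mul,
      ← Matrix.mulVec_mulVec, pow_rad_vTop hu] at this
    exact this

end CfsgLib.G2Cover
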