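import Cfsg.Agent.G2Cover.Decomp
import Mathlib.Algebra.CharP.Two

/-!
The field with four elements: a conjugate whose Levi component has non-zero trace or is scalar.
-/

set_option autoImplicit false
set_option maxHeartbeats 1000000

namespace CfsgLib.G2Cover

open Matrix Cfsg.Lie CfsgLib.G2Oct

variable {F : Type*} [Field F] [Fintype F]

/-- The exchanged coordinate. -/
def opp : Fin 8 → Fin 8 := ![7, 4, 5, 6, 1, 2, 3, 0]

/-- The sign of the exchange. -/
def oppSign (F : Type*) [Field F] : Fin 8 → F := ![1, -1, -1, -1, -1, -1, -1, 1]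

omit [Fintype F] in
theorem swap_apply (x : Fin 8 → F) (i : Fin 8) :
    (g2Mat (swapEl : ↥(G2 F)) *ᵥ x) i = oppSign F i * x (opp i) := by
  rw [g2Mat_swapEl, ev_mulVec]
  fin_cases i <;> simp [appS, swapS, oppSign, opp]

theorem deg_opp : ∀ i j : Fin 8, deg j ≤ deg i → deg (opp i) ≤ deg (opp j) := by decide

theorem radNeg_apply {y : ↥(G2 F)} (hy : y ∈ RadNeg F) {i j : Fin 8} (h : deg j ≤ deg i) :
    g2Mat y i j = (1 : Matrix (Fin 8) (Fin 8) F) i j := by
  rw [mem_RadNeg] at hy
  set w := swapEl * y * swapEl with hw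
  have e : y = swapEl * w * swapEl := by
    rw [hw, show swapEl * (swapEl * y * swapEl) * swapEl = (swapEl * swapEl) * y * (swapEl * swapEl) by group,
      swapEl_mul_self, one_mul, mul_one]
  have e2 : g2Mat (swapEl : ↥(G2 F)) *ᵥ Pi.single j 1 = Pi.single (opp j) (oppSign F j) := by
    funext k
    rw [swap_apply, Pi.single_apply, Pi.single_apply]
    fin_cases k <;> fin_cases j <;> simp [opp, oppSign]
  have hd : deg (opp i) ≤ deg (opp j) := deg_opp i j h
  have key : g2Mat y i j = oppSign F i * (g2Mat w (opp i) (opp j) * oppSign F j) := by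
    have h0 : g2Mat y i j = (g2Mat y *ᵥ Pi.single j 1) i := by rw [Matrix.mulVec_single_one]; rfl
    rw [h0, e, g2Mat_mul, g2Mat_mul, ← Matrix.mulVec_mulVec, ← Matrix.mulVec_mulVec, e2, swap_apply,
      Matrix.mulVec_single]
    show oppSign F i * (g2Mat w (opp i) (opp j) * oppSign F j) = _
    rfl
  rw [key, hy _ _ hd]
  fin_cases i <;> fin_cases j <;> simp [opp, oppSign, one_apply]

theorem eq_radEl {u : ↥(G2 F)} (hu : u ∈ Rad F) : ∃ s a b c e : F, u = radEl s a b c e := by
  set x := g2Mat u *ᵥ vBot F with hx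
  have hx4 : x 4 = 1 := by
    rw [hx, vBot, Matrix.mulVec_single_one]
    show g2Mat u 4 4 = 1
    rw [hu 4 4 le_rfl, one_apply_eq]
  obtain ⟨s, a, b, c, e, he⟩ : ∃ s a b c e : F, g2Mat (radEl s a b c e) *ᵥ vBot F = x := by
    have hT : octT x = 0 := by rw [hx, octT_g2Mat]; exact (octTQ_single 4 (by decide)).1
    have hQ : octQ x = 0 := by rw [hx, octQ_g2Mat]; exact (octTQ_single 4 (by decide)).2
    refine ⟨x 0 + x 2 * x 3, x 6 + x 2 * x 2 * x 3 + (x 0 + x 2 * x 3) * x 2,
      x 5 - (x 0 + x 2 * x 3) * x 3, -x 2, x 3, ?_⟩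
    have h7 : x 7 = -x 0 := by rw [octT] at hT; linear_combination hT
    have h1 : x 1 = -(x 0 * x 0) - x 2 * x 5 - x 3 * x 6 := by
      rw [octQ, h7, hx4] at hQ; linear_combination -hQ
    funext i
    simp only [radEl, g2Mat_mul, ← Matrix.mulVec_mulVec, g2Mat_rootEl, rootMat_mulVec_apply]
    fin_cases i <;> simp [rootE, rootS, vBot, Pi.single_apply, hx4, h7, h1] <;> ring
  refine ⟨s, a, b, c, e, ?_⟩
  set g := (radEl s a b c e)⁻¹ * u with hg
  have hgR : g ∈ Rad F := mul_mem (inv_mem (radEl_mem _ _ _ _ _)) hu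
  have hgf : g2Mat g *ᵥ vBot F = vBot F := by
    rw [hg, g2Mat_mul, ← Matrix.mulVec_mulVec, ← hx, ← he, Matrix.mulVec_mulVec, g2Mat_inv_mul,
      Matrix.one_mulVec]
  have hge : g2Mat g *ᵥ idemE F = idemE F := by
    rw [← idem_of_tops, g2Mat_zornMul, pow_rad_vTop hgR, hgf]
  obtain ⟨M, hM⟩ := exists_sl3_of_fix hge
  have hcol : ∀ i j : Fin 3, g2Mat g i.succ.castSucc.castSucc.castSucc.castSucc j.succ.castSucc.castSucc.castSucc.castSucc = M.1 i j := by
    intro i j
    have h0 := congrFun (sl3G2_mulVec M (Pi.single (j.succ.castSucc.castSucc.castSucc.castSucc) 1)) i.succ.castSucc.castSucc.castSucc.castSucc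
    rw [hM, Matrix.mulVec_single_one] at h0
    refine h0.trans ?_
    fin_cases i <;> fin_cases j <;> simp [sl3Lin, zMk, zA, mulVec, dotProduct, Fin.sum_univ_three, Pi.single_apply]
  rw [← hM, sl3G2_mulVec, vBot, show (Pi.single 4 1 : Fin 8 → F) = zMk 0 0 ![1, 0, 0] 0 by
    funext i; fin_cases i <;> simp [zMk], sl3Lin_apply] at hgf
  have r0 : (M⁻¹).1 0 0 = 1 := by
    simpa [zMk, mulVec, dotProduct, Fin.sum_univ_three, -Matrix.SpecialLinearGroup.coe_inv] using congrFun hgf 4
  have r1 : (M⁻¹).1 0 1 = 0 := by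
    simpa [zMk, mulVec, dotProduct, Fin.sum_univ_three, -Matrix.SpecialLinearGroup.coe_inv] using congrFun hgf 5
  have r2 : (M⁻¹).1 0 2 = 0 := by
    simpa [zMk, mulVec, dotProduct, Fin.sum_univ_three, -Matrix.SpecialLinearGroup.coe_inv] using congrFun hgf 6
  have hrow : ∀ j, M.1 0 j = (1 : Matrix (Fin 3) (Fin 3) F) 0 j := fun j => by
    have := congrArg (fun N : Matrix.SpecialLinearGroup (Fin 3) F => N.1 0 j) (inv_mul_cancel M)
    rw [Matrix.SpecialLinearGroup.coe_mul, Matrix.mul_apply, Fin.sum_univ_three, r0, r1, r2] at this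
    simpa using this
  have hM1 : M = 1 := by
    refine Matrix.SpecialLinearGroup.ext _ _ fun i j => ?_
    rw [Matrix.SpecialLinearGroup.coe_one]
    fin_cases i
    · exact hrow j
    all_goals
      rw [← hcol, hgR _ _ (by fin_cases j <;> decide)]
      fin_cases j <;> simp [one_apply]
  rw [hM1, map_one] at hM
  exact (inv_mul_eq_one.1 hM.symm).symm

/-- The reduced block of a matrix at `(i, j)`. -/
def redBlk (M : Matrix (Fin 8) (Fin 8) F) (i j : Fin 8) : F := M 1 1 * M i j - M i 1 * M 1 j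

theorem redBlk_decomp {y u : ↥(G2 F)} (hy : y ∈ RadNeg F) (hu : u ∈ Rad F) (A : GL (Fin 2) F) :
    let M := g2Mat (y * levi A * u)
    let d := A.1.det⁻¹
    M 1 1 = d ∧ redBlk M 5 5 = d * d * A.1 1 1 ∧ redBlk M 5 6 = -(d * d * A.1 1 0) ∧
      redBlk M 6 5 = -(d * d * A.1 0 1) ∧ redBlk M 6 6 = d * d * A.1 0 0 := by
  have y1 : ∀ j, g2Mat y 1 j = (1 : Matrix (Fin 8) (Fin 8) F) 1 j :=
    fun j => radNeg_apply hy (by revert j; decide)
  have y5 : ∀ j, j ≠ 1 → g2Mat y 5 j = (1 : Matrix (Fin 8) (Fin 8) F) 5 j :=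
    fun j hj => radNeg_apply hy (by revert hj; revert j; decide)
  have y6 : ∀ j, j ≠ 1 → g2Mat y 6 j = (1 : Matrix (Fin 8) (Fin 8) F) 6 j :=
    fun j hj => radNeg_apply hy (by revert hj; revert j; decide)
  have u1 : ∀ i, g2Mat u i 1 = (1 : Matrix (Fin 8) (Fin 8) F) i 1 :=
    fun i => hu i 1 (by revert i; decide)
  have u5 : ∀ i, i ≠ 1 → g2Mat u i 5 = (1 : Matrix (Fin 8) (Fin 8) F) i 5 :=
    fun i hi => hu i 5 (by revert hi; revert i; decide)
  have u6 : ∀ i, i ≠ 1 → g2Mat u i 6 = (1 : Matrix (Fin 8) (Fin 8) F) i 6 :=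
    fun i hi => hu i 6 (by revert hi; revert i; decide)
  intro M d
  have hM : M = g2Mat y * leviMat8 (A.1 0 0) (A.1 0 1) (A.1 1 0) (A.1 1 1) * g2Mat u := by
    show g2Mat (y * levi A * u) = _
    rw [g2Mat_mul, g2Mat_mul, g2Mat_levi]
  have hd : (A.1 0 0 * A.1 1 1 - A.1 0 1 * A.1 1 0)⁻¹ = d := by rw [← det_fin_two]
  refine ⟨?_, ?_, ?_, ?_, ?_⟩ <;>
  · simp [hM, redBlk, Matrix.mul_apply, Fin.sum_univ_eight, leviMat8, y1, y5, y6, u1, u5, u6, one_apply, hd]
    try ring

/-- The element `x_r(t) · y` for `y` in the opposite radical. -/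
def moved (r : Fin 12) (t s a b c e : F) : ↥(G2 F) :=
  rootEl r t * (swapEl * radEl s a b c e * swapEl)

omit [Fintype F] in
theorem moved_apply (r : Fin 12) (t s a b c e : F) (i j : Fin 8) :
    g2Mat (moved r t s a b c e) i j =
      (g2Mat (rootEl r t) *ᵥ (g2Mat (swapEl : ↥(G2 F)) *ᵥ (g2Mat (radEl s a b c e) *ᵥ
        (g2Mat (swapEl : ↥(G2 F)) *ᵥ Pi.single j 1)))) i := by
  have h0 : g2Mat (moved r t s a b c e) i j = (g2Mat (moved r t s a b c e) *ᵥ Pi.single j 1) i := by
    rw [Matrix.mulVec_single_one]; rfl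
  rw [h0, moved, g2Mat_mul, g2Mat_mul, g2Mat_mul]
  simp only [← Matrix.mulVec_mulVec]

omit [Fintype F] in
theorem moved_four (t s a b c e : F) :
    let M := g2Mat (moved 4 t s a b c e)
    M 1 1 = 1 - e * t ∧ M 1 5 = 0 ∧ M 1 6 = -t ∧
    M 5 1 = -c - 2 * s * t - b * t * t - 2 * c * e * t - e * s * t * t ∧
    M 5 5 = 1 - 2 * e * t + e * e * t * t ∧ M 5 6 = -2 * c * t - s * t * t ∧
    M 6 1 = e ∧ M 6 5 = 0 ∧ M 6 6 = 1 := by
  refine ⟨?_, ?_, ?_, ?_, ?_, ?_, ?_, ?_, ?_⟩ <;>
  · simp only [moved_apply, radEl, g2Mat_mul, ← Matrix.mulVec_mulVec, swap_apply, g2Mat_rootEl,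
      rootMat_mulVec_apply]
    simp [rootE, rootS, opp, oppSign, Pi.single_apply]
    try ring

omit [Fintype F] in
theorem moved_six (t s a b c e : F) :
    let M := g2Mat (moved 6 t s a b c e)
    M 1 1 = 1 - b * t - e * s * t ∧ M 1 5 = e * e * t ∧ M 1 6 = -(s * t) ∧
    M 5 1 = -c - a * e * t + b * c * t - s * s * t - 2 * c * e * s * t ∧
    M 5 5 = 1 - b * t - 2 * e * s * t - c * e * e * t ∧ M 5 6 = -(a * t) - 2 * c * s * t ∧
    M 6 1 = e ∧ M 6 5 = 0 ∧ M 6 6 = 1 := by
  refine ⟨?_, ?_, ?_, ?_, ?_, ?_, ?_, ?_, ?_⟩ <;>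
  · simp only [moved_apply, radEl, g2Mat_mul, ← Matrix.mulVec_mulVec, swap_apply, g2Mat_rootEl,
      rootMat_mulVec_apply]
    simp [rootE, rootS, opp, oppSign, Pi.single_apply]
    try ring

omit [Fintype F] in
theorem moved_nine (t s a b c e : F) :
    let M := g2Mat (moved 9 t s a b c e)
    M 1 1 = 1 - c * t ∧ M 1 5 = t ∧ M 1 6 = 0 ∧ M 5 1 = -c ∧ M 5 5 = 1 ∧ M 5 6 = 0 ∧
    M 6 1 = e - 2 * s * t - a * t * t - 2 * c * e * t - c * s * t * t + c * c * e * t * t ∧
    M 6 5 = -2 * e * t + s * t * t + 2 * c * e * t * t ∧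
    M 6 6 = 1 - 2 * c * t + c * c * t * t := by
  refine ⟨?_, ?_, ?_, ?_, ?_, ?_, ?_, ?_, ?_⟩ <;>
  · simp only [moved_apply, radEl, g2Mat_mul, ← Matrix.mulVec_mulVec, swap_apply, g2Mat_rootEl,
      rootMat_mulVec_apply]
    simp [rootE, rootS, opp, oppSign, Pi.single_apply]
    try ring

omit [Fintype F] in
theorem moved_eleven (t s a b c e : F) :
    let M := g2Mat (moved 11 t s a b c e)
    M 1 1 = 1 - a * t - c * s * t + c * c * e * t ∧ M 1 5 = s * t + 2 * c * e * t ∧ M 1 6 = c * c * t ∧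
    M 5 1 = -c ∧ M 5 5 = 1 ∧ M 5 6 = 0 ∧
    M 6 1 = e - a * e * t + b * c * t - s * s * t - 2 * c * e * s * t ∧
    M 6 5 = -(b * t) - 2 * e * s * t - c * e * e * t ∧ M 6 6 = 1 - a * t - 2 * c * s * t := by
  refine ⟨?_, ?_, ?_, ?_, ?_, ?_, ?_, ?_, ?_⟩ <;>
  · simp only [moved_apply, radEl, g2Mat_mul, ← Matrix.mulVec_mulVec, swap_apply, g2Mat_rootEl,
      rootMat_mulVec_apply]
    simp [rootE, rootS, opp, oppSign, Pi.single_apply]
    try ring

/-- The reduced block times a transvection is scalar or has non-zero trace. -/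
def Good (M : Matrix (Fin 8) (Fin 8) F) : Prop :=
  M 1 1 ≠ 0 ∧ (redBlk M 5 5 + redBlk M 6 6 + redBlk M 5 6 ≠ 0 ∨
    (redBlk M 5 6 = 0 ∧ redBlk M 6 5 + redBlk M 6 6 = 0 ∧ redBlk M 5 5 = redBlk M 6 6))

theorem exists_good (h4 : Fintype.card F = 4) (s a b c e : F)
    (hne : ¬ (s = 0 ∧ a = 0 ∧ b = 0 ∧ c = 0 ∧ e = 0)) :
    ∃ r : Fin 12, (r = 4 ∨ r = 6 ∨ r = 9 ∨ r = 11) ∧ ∃ t : F, Good (g2Mat (moved r t s a b c e)) := by
  haveI : CharP F 2 := by
    have : ringChar F = 2 := FiniteField.even_card_iff_char_two.2 (by rw [h4])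
    exact ringChar.of_eq this
  have two : (2 : F) = 0 := CharTwo.two_eq_zero
  have cube : ∀ x : F, x ≠ 0 → x ^ 3 = 1 := fun x hx => by
    have := FiniteField.pow_card_sub_one_eq_one x hx
    rwa [h4] at this
  obtain ⟨w, hw0, hw1⟩ : ∃ w : F, w ≠ 0 ∧ w ≠ 1 := by
    classical
    obtain ⟨w, -, hw⟩ := Finset.exists_mem_notMem_of_card_lt_card (s := ({0, 1} : Finset F)) (t := Finset.univ)
      (by rw [Finset.card_univ, h4]; exact (Finset.card_le_two).trans_lt (by norm_num))
    simp only [Finset.mem_insert, Finset.mem_singleton, not_or] at hw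
    exact ⟨w, hw.1, hw.2⟩
  have hw : w * w + w + 1 = 0 :=
    (mul_eq_zero.1 (show (w - 1) * (w * w + w + 1) = 0 by linear_combination cube w hw0)).resolve_left
      (sub_ne_zero.2 hw1)
  have hw2 : w * w ≠ 1 := fun h => hw0 (by linear_combination hw - h - two)
  by_contra hno
  push Not at hno
  by_cases he : e = 0
  · subst he
    have key : ∀ t : F, t ≠ 0 → c * t + s * t * t + b = 0 := by
      intro t ht
      obtain ⟨h11, h15, h16, h51, h55, h56, h61, h65, h66⟩ := moved_four t s a b c 0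
      by_contra hc
      refine hno 4 (Or.inl rfl) t ⟨by rw [h11]; simp, Or.inl fun hT => hc ?_⟩
      rw [redBlk, redBlk, redBlk, h11, h15, h16, h51, h55, h56, h61, h66] at hT
      linear_combination -hT - b * cube t ht + (1 - c * t - s * t * t) * two
    have k1 := key 1 one_ne_zero
    have k2 := key w hw0
    have k3 := key (w * w) (mul_ne_zero hw0 hw0)
    have hw3 : w * w * w = 1 := by linear_combination cube w hw0
    obtain rfl : b = 0 := by
      linear_combination k1 + k2 + k3 - (c + s) * hw - s * w * hw3 - b * two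
    obtain rfl : c = 0 := by linear_combination k2 - w * w * k1 + (-c) * hw + c * (w * w + 1) * two
    obtain rfl : s = 0 := by linear_combination k1
    have ha : a ≠ 0 := fun h => hne ⟨rfl, h, rfl, rfl, rfl⟩
    obtain ⟨h11, h15, h16, h51, h55, h56, h61, h65, h66⟩ := moved_eleven (w / a) 0 a 0 0 0
    refine hno 11 (Or.inr (Or.inr (Or.inr rfl))) (w / a) ⟨?_, Or.inl ?_⟩
    · rw [h11, mul_div_cancel₀ w ha]
      intro h
      exact hw1 (by linear_combination -h)
    · rw [redBlk, redBlk, redBlk, h11, h15, h16, h51, h55, h56, h61, h66]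
      simp only [mul_div_cancel₀ w ha]
      intro h
      refine one_ne_zero (α := F) ?_
      linear_combination h - hw + 2 * w * two
  · have he3 : e * e * e = 1 := by linear_combination cube e he
    have key : ∀ u : F, u ≠ 0 → u ≠ 1 →
        (c / e + 1) * u + (s / (e * e) + 1) * u * u + (b + 1) = 0 := by
      intro u hu hu1
      obtain ⟨t, rfl⟩ : ∃ t, e * t = u := ⟨u / e, mul_div_cancel₀ _ he⟩
      have ht3 : t * t * t = 1 := by linear_combination cube t (right_ne_zero_of_mul hu)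
      have hG : (c / e + 1) * (e * t) + (s / (e * e) + 1) * (e * t) * (e * t) + (b + 1) =
          c * t + e * t + s * t * t + e * e * t * t + b + 1 := by
        field_simp
        ring
      obtain ⟨h11, h15, h16, h51, h55, h56, h61, h65, h66⟩ := moved_four t s a b c e
      rw [hG]
      by_contra hc
      refine hno 4 (Or.inl rfl) t ⟨?_, Or.inl fun hT => hc ?_⟩
      · rw [h11]
        exact sub_ne_zero.2 (Ne.symm hu1)
      · rw [redBlk, redBlk, redBlk, h11, h15, h16, h51, h55, h56, h61, h66] at hT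
        linear_combination hT + (b + 2 * c * t + 2 * e * t + 2 * s * t * t - e * e * t * t) * two +
          (b + e * e * e) * ht3 + he3
    have hw3 : w * w * w = 1 := by linear_combination cube w hw0
    have k2 := key w hw0 hw1
    have k3 := key (w * w) (mul_ne_zero hw0 hw0) hw2
    have h12 : c / e + 1 = s / (e * e) + 1 := by
      refine sub_eq_zero.1 ((mul_eq_zero.1 ?_).resolve_left (mul_ne_zero hw0 (sub_ne_zero.2 (Ne.symm hw1))))
      linear_combination k2 - k3 + (s / (e * e) + 1) * w * hw3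
    have hC : c = b * e := by
      have h13 : c / e = b := by linear_combination -k2 + (c / e + 1) * hw + (-(w * w)) * h12
      rw [← h13, div_mul_cancel₀ _ he]
    have hS : s = b * (e * e) := by
      rw [hC, mul_div_cancel_right₀ _ he] at h12
      rw [add_right_cancel h12, div_mul_cancel₀ _ (mul_ne_zero he he)]
    subst hC
    subst hS
    have key6 : ∀ t : F, t ≠ 0 → (a + b * b) + t * (a * b + a) = 0 := by
      intro t ht
      obtain ⟨h11, h15, h16, h51, h55, h56, h61, h65, h66⟩ := moved_six t (b * (e * e)) a b (b * e) e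
      by_contra hc
      refine hno 6 (Or.inr (Or.inl rfl)) t ⟨?_, Or.inl fun hT => hc ?_⟩
      · rw [h11]; intro h
        exact one_ne_zero (α := F) (by linear_combination h + b * t * he3 + b * t * two)
      · rw [redBlk, redBlk, redBlk, h11, h15, h16, h51, h55, h56, h61, h66] at hT
        refine (mul_eq_zero.1 (show t * ((a + b * b) + t * (a * b + a)) = 0 from ?_)).resolve_left ht
        linear_combination hT + (-1 + a * t + 3 * b * t + 2 * b * b * t - 5 * b * b * t * t -
            b * b * b * t * t) * two +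
          (3 * b * t - a * t * t + 3 * b * b * t - 9 * b * b * t * t - 2 * b * b * b * t * t -
            6 * b * b * e * e * e * t * t + b * b * b * e * e * e * t * t) * he3
    have l1 := key6 1 one_ne_zero
    have l2 := key6 w hw0
    have hT2 : a * b + a = 0 :=
      (mul_eq_zero.1 (show (w - 1) * (a * b + a) = 0 by linear_combination l2 - l1)).resolve_left
        (sub_ne_zero.2 hw1)
    have ha : a = b * b := by linear_combination l1 - hT2 - b * b * two
    subst ha
    have hb : b = 0 ∨ b = 1 := by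
      rcases mul_eq_zero.1 (show (b * b) * (b + 1) = 0 by linear_combination hT2) with h | h
      · exact Or.inl (mul_self_eq_zero.1 h)
      · exact Or.inr (by linear_combination h - two)
    rcases hb with rfl | rfl
    · obtain ⟨h11, h15, h16, h51, h55, h56, h61, h65, h66⟩ := moved_nine (1 / e) (0 * (e * e)) (0 * 0) 0 (0 * e) e
      refine hno 9 (Or.inr (Or.inr (Or.inl rfl))) (1 / e) ⟨by rw [h11]; simp, Or.inr ⟨?_, ?_, ?_⟩⟩ <;>
        rw [redBlk] <;> (try rw [redBlk]) <;> simp only [h11, h15, h16, h51, h55, h56, h61, h65, h66] <;>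
        field_simp <;> grind
    · obtain ⟨h11, h15, h16, h51, h55, h56, h61, h65, h66⟩ :=
        moved_nine (w / e) (1 * (e * e)) (1 * 1) 1 (1 * e) e
      refine hno 9 (Or.inr (Or.inr (Or.inl rfl))) (w / e) ⟨?_, Or.inr ⟨?_, ?_, ?_⟩⟩
      · rw [h11]; field_simp; intro h; exact hw1 (by linear_combination -h)
      all_goals
        rw [redBlk]; (try rw [redBlk]); simp only [h11, h15, h16, h51, h55, h56, h61, h65, h66]
        field_simp
        grind

end CfsgLib.G2Cover
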