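import Cfsg.Agent.G2Cover.GLTwo
import Cfsg.Agent.G2Cover.Four
import Cfsg.Agent.G2Oct.Bridge
import Mathlib.Algebra.CharP.Lemmas

/-!
In `G₂(q)`, `q ≥ 3`, every non-identity element is a product of two conjugates of one semisimple
element.
-/

set_option autoImplicit false
set_option maxHeartbeats 1000000

namespace CfsgLib.G2Cover

open Matrix Cfsg.Lie CfsgLib.G2Oct

/-- `g` is a product of two conjugates of `x`. -/
def Covered {G : Type*} [Group G] (x g : G) : Prop :=
  ∃ u v : G, g = (u * x * u⁻¹) * (v * x * v⁻¹)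

theorem Covered.of_conj {G : Type*} [Group G] {x g : G} (h : G) (hc : Covered x (h * g * h⁻¹)) :
    Covered x g := by
  obtain ⟨u, v, e⟩ := hc
  refine ⟨h⁻¹ * u, h⁻¹ * v, ?_⟩
  calc g = h⁻¹ * (h * g * h⁻¹) * h := by group
    _ = h⁻¹ * (u * x * u⁻¹ * (v * x * v⁻¹)) * h := by rw [e]
    _ = _ := by group

variable {F : Type*} [Field F] [Fintype F]

/-- The trace and determinant are those of `X` or of its inverse. -/
def ClassPair (t d : F) (t' d' : F) : Prop := (t' = t ∧ d' = d) ∨ (t' = t / d ∧ d' = d⁻¹)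

theorem exists_conj_levi (X B : GL (Fin 2) F) (hX : X.1.trace ^ 2 ≠ 4 * X.1.det)
    (hB : ClassPair X.1.trace X.1.det B.1.trace B.1.det) :
    ∃ k : ↥(G2 F), levi B = k * levi X * k⁻¹ := by
  have hd := det_ne_zero_gl X
  have conj : ∀ Y : GL (Fin 2) F, Y.1.trace = B.1.trace → Y.1.det = B.1.det →
      Y.1.trace ^ 2 ≠ 4 * Y.1.det → ∃ P : GL (Fin 2) F, levi B = levi P * levi Y * (levi P)⁻¹ := by
    intro Y ht hdd hne
    obtain ⟨P, hP⟩ := exists_conj_of_trace_det B.1 Y.1 (nonScalar_of_disc _ (by rwa [← ht, ← hdd]))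
      (nonScalar_of_disc _ hne) ht.symm hdd.symm
    refine ⟨P, ?_⟩
    rw [← map_inv, ← map_mul, ← map_mul]
    exact congrArg levi (Units.ext hP)
  rcases hB with ⟨h1, h2⟩ | ⟨h1, h2⟩
  · obtain ⟨P, hP⟩ := conj X h1.symm h2.symm hX
    exact ⟨levi P, hP⟩
  · have htv : (tinv X).1.trace = X.1.trace / X.1.det ∧ (tinv X).1.det = X.1.det⁻¹ := by
      show ((X⁻¹).1ᵀ).trace = _ ∧ ((X⁻¹).1ᵀ).det = _
      rw [trace_transpose, det_transpose, Matrix.coe_units_inv, Matrix.inv_def, trace_smul, det_smul,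
        det_adjugate, Fintype.card_fin, Ring.inverse_eq_inv', smul_eq_mul, adjugate_fin_two]
      constructor
      · simp [trace_fin_two]; ring
      · norm_num
        field_simp
    obtain ⟨P, hP⟩ := conj (tinv X) (by rw [htv.1, h1]) (by rw [htv.2, h2]) (by
      rw [htv.1, htv.2]; intro h
      apply hX
      field_simp at h
      linear_combination h)
    refine ⟨levi P * swapEl, ?_⟩
    rw [hP, ← swap_levi, _root_.mul_inv_rev, inv_eq_of_mul_eq_one_right (swapEl_mul_self (K := F))]
    simp only [mul_assoc]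

theorem freeCond_classPair {t d t' d' : F} (hd : d ≠ 0) (h : FreeCond t d) (hp : ClassPair t d t' d') :
    FreeCond t' d' := by
  rcases hp with ⟨rfl, rfl⟩ | ⟨rfl, rfl⟩
  · exact h
  · obtain ⟨h1, h2, h3⟩ := h
    refine ⟨fun e => h1 (inv_eq_one.1 e), fun e => h2 ?_, fun e => h3 ?_⟩
    · field_simp at e; linear_combination e
    · field_simp at e; linear_combination e

theorem covered_of_split (X : GL (Fin 2) F) (hX : X.1.trace ^ 2 ≠ 4 * X.1.det)
    (hfree : FreeCond X.1.trace X.1.det) {y u : ↥(G2 F)} (hy : y ∈ RadNeg F) (hu : u ∈ Rad F)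
    (A : GL (Fin 2) F) {t₁ d₁ t₂ d₂ : F} (hs : SplitsAs A.1 t₁ d₁ t₂ d₂)
    (h1 : ClassPair X.1.trace X.1.det t₁ d₁) (h2 : ClassPair X.1.trace X.1.det t₂ d₂) :
    Covered (levi X) (y * levi A * u) := by
  obtain ⟨B₀, C₀, hBC, ht1, hd1, ht2, hd2⟩ := hs
  have hAd := det_ne_zero_gl A
  rw [hBC, det_mul] at hAd
  obtain ⟨B, hB⟩ : ∃ B : GL (Fin 2) F, B.1 = B₀ :=
    ⟨Matrix.GeneralLinearGroup.mkOfDetNeZero _ (mul_ne_zero_iff.1 hAd).1, rfl⟩
  obtain ⟨C, hC⟩ : ∃ C : GL (Fin 2) F, C.1 = C₀ :=
    ⟨Matrix.GeneralLinearGroup.mkOfDetNeZero _ (mul_ne_zero_iff.1 hAd).2, rfl⟩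
  have hA : A = B * C := Units.ext (by rw [hBC, Units.val_mul, hB, hC])
  have pB : ClassPair X.1.trace X.1.det B.1.trace B.1.det := by rwa [hB, ht1, hd1]
  have pC : ClassPair X.1.trace X.1.det C.1.trace C.1.det := by rwa [hC, ht2, hd2]
  have fB := freeCond_classPair (det_ne_zero_gl X) hfree pB
  have fC := freeCond_classPair (det_ne_zero_gl X) hfree pC
  obtain ⟨k₁, hk₁⟩ := exists_conj_levi X B hX pB
  obtain ⟨k₂, hk₂⟩ := exists_conj_levi X C hX pC
  obtain ⟨s, -, hs⟩ := exists_conj_eq_mul (RadNeg F) (levi B) (fun w hw => levi_conj_memNeg B hw)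
    (fun w hw hc => eq_one_of_commuteNeg B fB hw hc) hy
  obtain ⟨s', -, hs'⟩ := exists_conj_eq_mul (Rad F) (levi C) (fun w hw => levi_conj_mem C hw)
    (fun w hw hc => eq_one_of_commute C fC hw hc) (levi_conj_mem C hu)
  refine ⟨s * k₁, s' * k₂, ?_⟩
  calc y * levi A * u = (y * levi B) * (levi C * u * (levi C)⁻¹ * levi C) := by
        rw [hA, map_mul]; group
    _ = (s * levi B * s⁻¹) * (s' * levi C * s'⁻¹) := by rw [hs, hs']
    _ = _ := by rw [hk₁, hk₂]; group

theorem compMat_trace_det (t d : F) : (compMat t d).trace = t ∧ (compMat t d).det = d :=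
  ⟨by simp [compMat, trace_fin_two], by simp [compMat, det_fin_two]⟩

theorem cover_odd (p : ℕ) [Fact p.Prime] [CharP F p] (hodd : Fintype.card F % 2 = 1) :
    ∃ x : ↥(G2 F), ¬ p ∣ orderOf x ∧ ∀ g, g ≠ 1 → Covered x g := by
  classical
  have h2 : (2 : F) ≠ 0 := Ring.two_ne_zero fun h => by
    have := FiniteField.even_card_iff_char_two.1 h
    omega
  obtain ⟨t, ht0, ht4⟩ : ∃ t : F, t ≠ 0 ∧ t ^ 2 + 4 ≠ 0 := by
    by_cases h5 : (5 : F) = 0
    · refine ⟨2, h2, fun h => one_ne_zero (α := F) ?_⟩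
      linear_combination 2 * h - 3 * h5
    · exact ⟨1, one_ne_zero, by norm_num; exact h5⟩
  obtain ⟨htr, hdt⟩ := compMat_trace_det t (-1 : F)
  obtain ⟨X, hX⟩ : ∃ X : GL (Fin 2) F, X.1 = compMat t (-1) :=
    ⟨Matrix.GeneralLinearGroup.mkOfDetNeZero _ (by simp [compMat, det_fin_two]), rfl⟩
  have hXt : X.1.trace = t := by rw [hX, htr]
  have hXd : X.1.det = -1 := by rw [hX, hdt]
  have hdisc : X.1.trace ^ 2 ≠ 4 * X.1.det := by
    rw [hXt, hXd]; intro h; exact ht4 (by linear_combination h)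
  have hfree : FreeCond X.1.trace X.1.det := by
    rw [hXt, hXd]
    exact ⟨fun h => h2 (by linear_combination -h), fun h => ht0 (by linear_combination -h),
      fun h => ht0 (by linear_combination h)⟩
  refine ⟨levi X, ?_, fun g hg => ?_⟩
  · -- semisimple
    set q := Fintype.card F
    obtain ⟨n, -, hn⟩ := FiniteField.card F p
    have hdvd : p ∣ q := by show p ∣ Fintype.card F; rw [hn]; exact dvd_pow_self p n.ne_zero
    let Y : Matrix (Fin 2) (Fin 2) F := X.1
    let S : Matrix (Fin 2) (Fin 2) F := (2 : F) • Y - t • 1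
    have hS2 : S * S = (t ^ 2 + 4) • (1 : Matrix (Fin 2) (Fin 2) F) := by
      ext i j
      fin_cases i <;> fin_cases j <;>
        simp [S, Y, hX, compMat, Matrix.mul_apply, Fin.sum_univ_two] <;> ring
    have hY : Y = (2 : F)⁻¹ • (S + t • 1) := by
      simp only [S, sub_add_cancel, smul_smul, inv_mul_cancel₀ h2, one_smul]
    have hq : ∀ (c : F) (M : Matrix (Fin 2) (Fin 2) F), (c • M) ^ q = c • M ^ q := fun c M => by
      rw [smul_pow, FiniteField.pow_card]
    haveI : ExpChar (Matrix (Fin 2) (Fin 2) F) p := ExpChar.prime Fact.out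
    have hadd : ∀ A B : Matrix (Fin 2) (Fin 2) F, Commute A B → (A + B) ^ q = A ^ q + B ^ q := by
      intro A B h
      show (A + B) ^ Fintype.card F = A ^ Fintype.card F + B ^ Fintype.card F
      rw [hn, add_pow_expChar_pow_of_commute p n h]
    have hSq : S ^ q = (t ^ 2 + 4) ^ ((q - 1) / 2) • S := by
      conv_lhs => rw [show q = 2 * ((q - 1) / 2) + 1 by
        have : q % 2 = 1 := hodd
        omega, pow_succ, pow_mul, sq, hS2, smul_pow, one_pow,
        smul_mul_assoc, one_mul]
    set σ := (t ^ 2 + 4) ^ ((q - 1) / 2) with hσ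
    have hσ2 : σ * σ = 1 := by
      rw [hσ, ← pow_add, show (q - 1) / 2 + (q - 1) / 2 = q - 1 by
        have : q % 2 = 1 := hodd
        omega]
      exact FiniteField.pow_card_sub_one_eq_one _ ht4
    have hY1 : Y ^ q = (2 : F)⁻¹ • (σ • S + t • 1) := by
      conv_lhs => rw [hY, hq, hadd _ _ (Commute.smul_right (Commute.one_right _) _), hSq, hq, one_pow]
    have hY2 : Y ^ (q * q) = Y := by
      rw [pow_mul, hY1, hq, hadd _ _ (Commute.smul_right (Commute.one_right _) _), hq, hSq, hq, one_pow,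
        smul_smul σ σ, hσ2, one_smul, ← hY]
    have hX2 : X ^ (q * q) = X := Units.ext (by rw [Units.val_pow_eq_pow_val]; exact hY2)
    have hqq : 1 ≤ q * q := Nat.mul_pos Fintype.card_pos Fintype.card_pos
    have hX3 : X ^ (q * q - 1) = 1 := by
      have : X ^ (q * q - 1) * X = 1 * X := by rw [← pow_succ, Nat.sub_add_cancel hqq, hX2, one_mul]
      exact mul_right_cancel this
    intro hp
    have h1 : p ∣ q * q - 1 := hp.trans (orderOf_dvd_of_pow_eq_one (by rw [← map_pow, hX3, map_one]))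
    have h3 : p ∣ q * q := hdvd.mul_right q
    exact (Fact.out : p.Prime).not_dvd_one (by
      have := Nat.dvd_sub h3 h1
      rwa [show q * q - (q * q - 1) = 1 by omega] at this)
  · obtain ⟨h, h11, -⟩ := exists_conj_corner hg 1
    obtain ⟨y, hy, A, u, hu, hAd, hdec⟩ := exists_decomp (h * g * h⁻¹) (by rw [h11]; exact one_ne_zero)
    rw [h11, inv_one] at hAd
    refine Covered.of_conj h (hdec ▸ ?_)
    have pX : ClassPair X.1.trace X.1.det t (-1) := Or.inl ⟨hXt.symm, hXd.symm⟩
    have pI : ClassPair X.1.trace X.1.det (-t) (-1) :=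
      Or.inr ⟨by rw [hXt, hXd, div_neg, div_one], by rw [hXd, inv_neg, inv_one]⟩
    have hD : A.1.det / (-1 : F) = -1 := by rw [hAd]; norm_num
    by_cases hT : A.1.trace ^ 2 = 4 * A.1.det
    · have hs : A.1.trace = 2 ∨ A.1.trace = -2 := by
        rcases mul_eq_zero.1 (show (A.1.trace - 2) * (A.1.trace + 2) = 0 by
          linear_combination hT + 4 * hAd) with h | h
        · exact Or.inl (sub_eq_zero.1 h)
        · exact Or.inr (eq_neg_of_add_eq_zero_left h)
      by_cases hns : NonScalar A.1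
      · rcases hs with hs | hs
        · have := splitsAs_double hns (s := 1) (t := t) (d := -1) (k := -t) (by rw [hs]; ring)
            (by rw [hAd]; ring) (by simp) (Or.inl fun e => mul_ne_zero h2 ht0 (by linear_combination e))
          rw [hD, show -t / (-1 : F) = t by rw [neg_div_neg_eq, div_one]] at this
          exact covered_of_split X hdisc hfree hy hu A this pX pX
        · have := splitsAs_double hns (s := -1) (t := t) (d := -1) (k := t) (by rw [hs]; ring)
            (by rw [hAd]; ring) (by simp) (Or.inl fun e => mul_ne_zero h2 ht0 (by linear_combination -e))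
          rw [hD, show t / (-1 : F) = -t by rw [div_neg, div_one]] at this
          exact covered_of_split X hdisc hfree hy hu A this pX pI
      · obtain ⟨e1, e2, e3⟩ := not_not.1 hns
        have hsq : A.1 0 0 * A.1 0 0 = 1 := by
          rw [det_fin_two, e1, e2, ← e3] at hAd; linear_combination hAd
        have := splitsAs_scalar hns (B := X.1) (det_ne_zero_gl X) rfl
        rw [hXt, hXd, hD] at this
        refine covered_of_split X hdisc hfree hy hu A this pX ?_
        rcases mul_self_eq_one_iff.1 hsq with e | e <;> rw [e]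
        · rw [show (1 : F) * t / -1 = -t by rw [one_mul, div_neg, div_one]]; exact pI
        · rw [show (-1 : F) * t / -1 = t by rw [neg_one_mul, neg_div_neg_eq, div_one]]; exact pX
    · have := splitsAs_odd hodd hT (t := t) (d := -1) (k := -t) (by simp)
      rw [hD, show -t / (-1 : F) = t by rw [neg_div_neg_eq, div_one]] at this
      exact covered_of_split X hdisc hfree hy hu A this pX pX

theorem exists_scalar_sq [CharP F 2] {A : Matrix (Fin 2) (Fin 2) F} (h : ¬ NonScalar A) {s : F}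
    (hs : s ^ 2 = A.det) : A 0 0 = s := by
  obtain ⟨h1, h2, h3⟩ := not_not.1 h
  refine frobenius_inj F 2 ?_
  simp only [frobenius_def]
  rw [hs, det_fin_two, h1, h2, ← h3]
  ring

theorem cover_even [CharP F 2] (h8 : 8 ≤ Fintype.card F) :
    ∃ x : ↥(G2 F), ¬ 2 ∣ orderOf x ∧ ∀ g, g ≠ 1 → Covered x g := by
  classical
  have two : (2 : F) = 0 := CharTwo.two_eq_zero
  obtain ⟨g₀, hg₀⟩ := IsCyclic.exists_ofOrder_eq_natCard (α := Fˣ)
  set l : F := (g₀ : F) with hl
  have hne : ∀ k : ℕ, 0 < k → k < 7 → l ^ k ≠ 1 := by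
    intro k hk hk7 h
    have hd : orderOf g₀ ∣ k := orderOf_dvd_of_pow_eq_one (Units.ext (by simpa using h))
    rw [hg₀, Nat.card_units, Nat.card_eq_fintype_card] at hd
    exact absurd (Nat.le_of_dvd hk hd) (by omega)
  have hl0 : l ≠ 0 := g₀.ne_zero
  obtain ⟨X, hX⟩ : ∃ X : GL (Fin 2) F, X.1 = !![l, 0; 0, l ^ 2] :=
    ⟨Matrix.GeneralLinearGroup.mkOfDetNeZero _ (by rw [det_fin_two]; simp [hl0]), rfl⟩
  have hXt : X.1.trace = l + l ^ 2 := by rw [hX, trace_fin_two]; simp
  have hXd : X.1.det = l ^ 3 := by rw [hX, det_fin_two]; simp; ring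
  have hl1 : l - 1 ≠ 0 := sub_ne_zero.2 (by simpa using hne 1 (by omega) (by omega))
  have hdisc : X.1.trace ^ 2 ≠ 4 * X.1.det := by
    rw [hXt, hXd]
    intro h
    exact mul_ne_zero hl0 hl1 (mul_self_eq_zero.1 (show (l * (l - 1)) * (l * (l - 1)) = 0 by
      linear_combination h + (0 : F) * two))
  have hfree : FreeCond X.1.trace X.1.det := by
    rw [hXt, hXd]
    refine ⟨hne 3 (by omega) (by omega), fun h => ?_, fun h => ?_⟩
    · exact mul_ne_zero hl1 (sub_ne_zero.2 (hne 2 (by omega) (by omega))) (by linear_combination h)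
    · exact mul_ne_zero (sub_ne_zero.2 (hne 4 (by omega) (by omega)))
        (sub_ne_zero.2 (hne 5 (by omega) (by omega))) (by linear_combination h)
  refine ⟨levi X, ?_, fun g hg => ?_⟩
  · have hpow : X ^ (Fintype.card F - 1) = 1 := by
      refine Units.ext ?_
      have hdg : X.1 = Matrix.diagonal ![l, l ^ 2] := by
        rw [hX]; ext i j; fin_cases i <;> fin_cases j <;> simp
      rw [Units.val_pow_eq_pow_val, hdg, Matrix.diagonal_pow, Units.val_one, ← Matrix.diagonal_one]
      congr 1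
      funext i
      fin_cases i <;> simp [FiniteField.pow_card_sub_one_eq_one, hl0]
    intro hp
    have h1 : 2 ∣ Fintype.card F - 1 := hp.trans (orderOf_dvd_of_pow_eq_one (by rw [← map_pow, hpow, map_one]))
    obtain ⟨n, -, hn⟩ := FiniteField.card F 2
    have h3 : 2 ∣ Fintype.card F := hn ▸ dvd_pow_self 2 n.ne_zero
    exact Nat.prime_two.not_dvd_one (by
      have := Nat.dvd_sub h3 h1
      rwa [show Fintype.card F - (Fintype.card F - 1) = 1 by omega] at this)
  · set d := X.1.det with hd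
    have hd0 : d ≠ 0 := det_ne_zero_gl X
    obtain ⟨h, h11, -⟩ := exists_conj_corner hg (d * d)⁻¹
    obtain ⟨y, hy, A, u, hu, hAd, hdec⟩ :=
      exists_decomp (h * g * h⁻¹) (by rw [h11]; exact inv_ne_zero (mul_ne_zero hd0 hd0))
    rw [h11, inv_inv] at hAd
    refine Covered.of_conj h (hdec ▸ ?_)
    have pX : ClassPair X.1.trace d X.1.trace d := Or.inl ⟨rfl, rfl⟩
    have hD : A.1.det / d = d := by rw [hAd, mul_div_assoc, div_self hd0, mul_one]
    by_cases hT : A.1.trace = 0
    · by_cases hns : NonScalar A.1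
      · have := splitsAs_double hns (s := d) (t := X.1.trace) (d := d) (k := X.1.trace * d)
          (by rw [hT, two, zero_mul]) (by rw [hAd, sq]) hd0
          (Or.inr ⟨l, by rw [hXt, hXd]; ring⟩)
        rw [hD, mul_div_assoc, div_self hd0, mul_one] at this
        exact covered_of_split X hdisc hfree hy hu A this pX pX
      · have := splitsAs_scalar hns (B := X.1) (det_ne_zero_gl X)
          (exists_scalar_sq hns (s := d) (by rw [hAd, sq]))
        rw [← hd, hD, mul_comm, mul_div_assoc, div_self hd0, mul_one] at this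
        exact covered_of_split X hdisc hfree hy hu A this pX pX
    · have := splitsAs_two hT (t := X.1.trace) (d := d) (k := X.1.trace * d) hd0
      rw [hD, mul_div_assoc, div_self hd0, mul_one] at this
      exact covered_of_split X hdisc hfree hy hu A this pX pX

theorem cover_four [CharP F 2] (h4 : Fintype.card F = 4) :
    ∃ x : ↥(G2 F), ¬ 2 ∣ orderOf x ∧ ∀ g, g ≠ 1 → Covered x g := by
  classical
  have two : (2 : F) = 0 := CharTwo.two_eq_zero
  have cube : ∀ x : F, x ≠ 0 → x ^ 3 = 1 := fun x hx => by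
    have := FiniteField.pow_card_sub_one_eq_one x hx
    rwa [h4] at this
  obtain ⟨w, hw0, hw1⟩ : ∃ w : F, w ≠ 0 ∧ w ≠ 1 := by
    obtain ⟨w, -, hw⟩ := Finset.exists_mem_notMem_of_card_lt_card (s := ({0, 1} : Finset F)) (t := Finset.univ)
      (by rw [Finset.card_univ, h4]; exact (Finset.card_le_two).trans_lt (by norm_num))
    simp only [Finset.mem_insert, Finset.mem_singleton, not_or] at hw
    exact ⟨w, hw.1, hw.2⟩
  have hw : w * w + w + 1 = 0 :=
    (mul_eq_zero.1 (show (w - 1) * (w * w + w + 1) = 0 by linear_combination cube w hw0)).resolve_left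
      (sub_ne_zero.2 hw1)
  have hw3 : w * w * w = 1 := by linear_combination cube w hw0
  have hinv : w⁻¹ = w * w := inv_eq_of_mul_eq_one_right (by linear_combination hw3)
  obtain ⟨htr, hdt⟩ := compMat_trace_det (1 : F) w
  obtain ⟨X, hX⟩ : ∃ X : GL (Fin 2) F, X.1 = compMat 1 w :=
    ⟨Matrix.GeneralLinearGroup.mkOfDetNeZero _ (by simp [compMat, det_fin_two, hw0]), rfl⟩
  have hXt : X.1.trace = 1 := by rw [hX, htr]
  have hXd : X.1.det = w := by rw [hX, hdt]
  have hdisc : X.1.trace ^ 2 ≠ 4 * X.1.det := by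
    rw [hXt, hXd]
    intro h
    exact one_ne_zero (α := F) (by linear_combination h + 2 * w * two)
  have hfree : FreeCond X.1.trace X.1.det := by
    rw [hXt, hXd]
    refine ⟨hw1, fun h => hw0 (by linear_combination h), fun h => hw0 ?_⟩
    linear_combination -h + hw3 + two
  refine ⟨levi X, ?_, fun g hg => ?_⟩
  · have h15 : X ^ 15 = 1 := by
      have h2' : (compMat (1 : F) w) ^ 2 = compMat 1 w - w • 1 := by
        ext i j
        fin_cases i <;> fin_cases j <;> simp [sq, compMat, Matrix.mul_apply, Fin.sum_univ_two] <;> ring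
      have e4 : (compMat (1 : F) w) ^ 4 = compMat 1 w + 1 := by
        rw [show 4 = 2 * 2 from rfl, pow_mul, h2']
        ext i j
        fin_cases i <;> fin_cases j <;> simp [sq, compMat, Matrix.mul_apply, Fin.sum_univ_two] <;> grind
      have e16 : (compMat (1 : F) w) ^ 16 = compMat 1 w := by
        have e44 : (compMat (1 : F) w + 1) ^ 4 = (compMat (1 : F) w) ^ 4 + 1 := by
          rw [show 4 = 2 ^ 2 from rfl]
          haveI : ExpChar (Matrix (Fin 2) (Fin 2) F) 2 := ExpChar.prime Nat.prime_two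
          rw [add_pow_expChar_pow_of_commute 2 2 (Commute.one_right _), one_pow]
        rw [show 16 = 4 * 4 from rfl, pow_mul, e4, e44, e4]
        ext i j
        fin_cases i <;> fin_cases j <;> simp [compMat] <;> linear_combination two
      have hx16 : X ^ 16 = X := Units.ext (by rw [Units.val_pow_eq_pow_val, hX, e16])
      exact mul_right_cancel (show X ^ 15 * X = 1 * X by rw [← pow_succ, hx16, one_mul])
    intro hp
    have h1 : 2 ∣ 15 := hp.trans (orderOf_dvd_of_pow_eq_one (by rw [← map_pow, h15, map_one]))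
    omega
  · have pX : ClassPair X.1.trace X.1.det 1 w := Or.inl ⟨hXt.symm, hXd.symm⟩
    have pI : ClassPair X.1.trace X.1.det (w * w) (w * w) :=
      Or.inr ⟨by rw [hXt, hXd, one_div, hinv], by rw [hXd, hinv]⟩
    have key : ∀ y ∈ RadNeg F, ∀ u ∈ Rad F, ∀ A : GL (Fin 2) F, (A.1.trace ≠ 0 ∨ ¬ NonScalar A.1) →
        Covered (levi X) (y * levi A * u) := by
      intro y hy u hu A hA
      obtain ⟨t₁, d₁, t₂, d₂, p1, p2, hdet, hd₁, s, hs, hst⟩ :
          ∃ t₁ d₁ t₂ d₂ : F, ClassPair X.1.trace X.1.det t₁ d₁ ∧ ClassPair X.1.trace X.1.det t₂ d₂ ∧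
            A.1.det = d₁ * d₂ ∧ d₁ ≠ 0 ∧ ∃ s, s ^ 2 = d₁ * d₂ ∧ s * t₁ / d₁ = t₂ := by
        have hdA := det_ne_zero_gl A
        have hmem : A.1.det = w * w ∨ A.1.det = 1 ∨ A.1.det = w := by
          rcases mul_eq_zero.1 (show (A.1.det - 1) * ((A.1.det - w) * (A.1.det - w * w)) = 0 by
            linear_combination cube _ hdA + (A.1.det - A.1.det ^ 2) * hw + (A.1.det - 1) * hw3) with h | h
          · exact Or.inr (Or.inl (sub_eq_zero.1 h))
          · rcases mul_eq_zero.1 h with h | h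
            · exact Or.inr (Or.inr (sub_eq_zero.1 h))
            · exact Or.inl (sub_eq_zero.1 h)
        rcases hmem with h | h | h
        · exact ⟨1, w, 1, w, pX, pX, h, hw0, w, sq w, by field_simp⟩
        · exact ⟨1, w, w * w, w * w, pX, pI, by rw [h]; linear_combination -hw3, hw0, 1,
            by linear_combination -hw3, by rw [one_mul, one_div, hinv]⟩
        · exact ⟨w * w, w * w, w * w, w * w, pI, pI, by rw [h]; linear_combination -w * hw3,
            mul_ne_zero hw0 hw0, w * w, sq _, by field_simp⟩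
      by_cases hT : A.1.trace = 0
      · have hns := hA.resolve_left (not_not.2 hT)
        obtain ⟨P, hP⟩ : ∃ B : Matrix (Fin 2) (Fin 2) F, B.trace = t₁ ∧ B.det = d₁ :=
          ⟨_, compMat_trace_det t₁ d₁⟩
        have := splitsAs_scalar hns (B := P) (by rw [hP.2]; exact hd₁)
          (exists_scalar_sq hns (s := s) (by rw [hs, hdet]))
        rw [hP.1, hP.2, hdet, mul_div_cancel_left₀ _ hd₁, hst] at this
        exact covered_of_split X hdisc hfree hy hu A this p1 p2
      · have := splitsAs_two hT (t := t₁) (d := d₁) (k := t₂ * d₁) hd₁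
        rw [hdet, mul_div_cancel_left₀ _ hd₁, mul_div_cancel_right₀ _ hd₁] at this
        exact covered_of_split X hdisc hfree hy hu A this p1 p2
    obtain ⟨h, h11, hmove⟩ := exists_conj_corner hg 1
    refine Covered.of_conj h ?_
    generalize h * g * h⁻¹ = g' at h11 hmove
    obtain ⟨y, hy, A, u, hu, hAd, hdec⟩ := exists_decomp g' (by rw [h11]; exact one_ne_zero)
    by_cases hA : A.1.trace ≠ 0 ∨ ¬ NonScalar A.1
    · exact hdec ▸ key y hy u hu A hA
    push Not at hA
    obtain ⟨hT, hns⟩ := hA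
    rw [h11, inv_one] at hAd
    -- normal form of the Levi component
    obtain ⟨J, hJ⟩ : ∃ J : GL (Fin 2) F, J.1 = !![1, 1; 0, 1] :=
      ⟨Matrix.GeneralLinearGroup.mkOfDetNeZero _ (by simp [det_fin_two]), rfl⟩
    obtain ⟨P, hP⟩ := exists_conj_of_trace_det A.1 J.1 hns
      (by rw [hJ]; rintro ⟨h, -, -⟩; simp at h)
      (by rw [hT, hJ, trace_fin_two]; simp [CharTwo.add_self_eq_zero])
      (by rw [hAd, hJ]; simp [det_fin_two])
    have hAJ : levi A = levi P * levi J * (levi P)⁻¹ := by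
      rw [← map_inv, ← map_mul, ← map_mul]; exact congrArg levi (Units.ext hP)
    set y' := (levi P)⁻¹ * y * levi P with hy'
    set u' := (levi P)⁻¹ * u * levi P with hu'
    have hy'm : y' ∈ RadNeg F := by
      have := levi_conj_memNeg P⁻¹ hy
      rwa [map_inv, inv_inv] at this
    have hu'm : u' ∈ Rad F := by
      have := levi_conj_mem P⁻¹ hu
      rwa [map_inv, inv_inv] at this
    refine Covered.of_conj (levi P)⁻¹ ?_
    have eg : (levi P)⁻¹ * g' * (levi P)⁻¹⁻¹ = y' * levi J * u' := by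
      rw [hdec, hAJ, hy', hu']; group
    rw [eg]
    obtain ⟨s, a, b, c, e, he⟩ := eq_radEl (mem_RadNeg.1 hy'm)
    have hy'e : y' = swapEl * radEl s a b c e * swapEl := by
      rw [← he, show swapEl * (swapEl * y' * swapEl) * swapEl = (swapEl * swapEl) * y' * (swapEl * swapEl) by
        group, swapEl_mul_self, one_mul, mul_one]
    have hne : ¬ (s = 0 ∧ a = 0 ∧ b = 0 ∧ c = 0 ∧ e = 0) := by
      rintro ⟨rfl, rfl, rfl, rfl, rfl⟩
      have h0 : ∀ r : Fin 12, rootEl r (0 : F) = 1 := fun r => by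
        refine mulVec_ext' fun x => ?_
        rw [g2Mat_rootEl, g2Mat_one, Matrix.one_mulVec, rootMat_mulVec]
        simp
      have hy1 : y' = 1 := by
        rw [hy'e]; simp [radEl, h0, swapEl_mul_self]
      have hy0 : y = 1 := by
        rw [hy'] at hy1
        calc y = levi P * ((levi P)⁻¹ * y * levi P) * (levi P)⁻¹ := by group
          _ = 1 := by rw [hy1]; group
      refine hmove ⟨A.1.det⁻¹, ?_⟩
      rw [hdec, hy0, one_mul, g2Mat_mul, ← Matrix.mulVec_mulVec, pow_rad_vTop hu, g2Mat_levi, vTop,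
        Matrix.mulVec_single_one]
      funext i
      show leviMat8 _ _ _ _ i 1 = _
      fin_cases i <;> simp [leviMat8, det_fin_two]
    obtain ⟨r, hr, t, hgood⟩ := exists_good h4 s a b c e hne
    set z := rootEl r t
    have hz : z ∈ Rad F := by rcases hr with rfl | rfl | rfl | rfl <;> exact rootEl_mem_Rad (by decide) _
    rw [moved, ← hy'e] at hgood
    obtain ⟨hM11, hgood⟩ := hgood
    obtain ⟨y₁, hy₁, B, u₁, hu₁, hBd, hzy⟩ := exists_decomp (z * y') hM11
    refine Covered.of_conj z ?_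
    have e1 : z * (y' * levi J * u') * z⁻¹ =
        y₁ * levi (B * J) * ((levi J)⁻¹ * u₁ * levi J * (u' * z⁻¹)) := by
      rw [show z * (y' * levi J * u') * z⁻¹ = (z * y') * levi J * (u' * z⁻¹) by group, hzy, map_mul]
      group
    rw [e1]
    refine key _ hy₁ _ (mul_mem (by have := levi_conj_mem J⁻¹ hu₁; rwa [map_inv, inv_inv] at this)
      (mul_mem hu'm (inv_mem hz))) _ ?_
    have hdec' := redBlk_decomp hy₁ hu₁ B
    rw [← hzy] at hdec'
    obtain ⟨-, r55, r56, r65, r66⟩ := hdec'
    have hk : B.1.det⁻¹ * B.1.det⁻¹ ≠ 0 :=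
      mul_ne_zero (inv_ne_zero (det_ne_zero_gl B)) (inv_ne_zero (det_ne_zero_gl B))
    set k := B.1.det⁻¹ * B.1.det⁻¹ with hkdef
    rw [r55, r56, r65, r66] at hgood
    rcases hgood with hg | ⟨g1, g2, g3⟩
    · refine Or.inl fun h => hg ?_
      rw [Units.val_mul, hJ, trace_fin_two] at h
      simp [Matrix.mul_apply, Fin.sum_univ_two] at h
      linear_combination k * h - k * B.1 1 0 * two
    · refine Or.inr (not_not.2 ?_)
      have hr' : B.1 1 0 = 0 := (mul_eq_zero.1 (neg_eq_zero.1 g1)).resolve_left hk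
      have hpq : B.1 0 0 = B.1 0 1 :=
        sub_eq_zero.1 ((mul_eq_zero.1 (show k * (B.1 0 0 - B.1 0 1) = 0 by linear_combination g2)).resolve_left hk)
      have hsp : B.1 1 1 = B.1 0 0 := mul_left_cancel₀ hk g3
      rw [Units.val_mul, hJ]
      refine ⟨?_, ?_, ?_⟩ <;> simp [Matrix.mul_apply, Fin.sum_univ_two, hr', hsp, ← hpq,
        CharTwo.add_self_eq_zero]

theorem exists_cover (p : ℕ) [Fact p.Prime] [CharP F p] (h3 : 3 ≤ Fintype.card F) :
    ∃ x : ↥(G2 F), ¬ p ∣ orderOf x ∧ ∀ g, g ≠ 1 → Covered x g := by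
  obtain ⟨n, -, hn⟩ := FiniteField.card F p
  rcases (Fact.out : p.Prime).eq_two_or_odd with rfl | hp
  · by_cases h8 : 8 ≤ Fintype.card F
    · exact cover_even h8
    · refine cover_four ?_
      have hlt : (n : ℕ) < 3 := by
        by_contra h
        exact h8 (hn ▸ (show 8 ≤ 2 ^ (n : ℕ) from (show (8 : ℕ) = 2 ^ 3 from rfl) ▸
          Nat.pow_le_pow_right two_pos (not_lt.1 h)))
      interval_cases hn' : (n : ℕ) <;> simp_all
  · refine cover_odd p ?_
    rw [hn, Nat.pow_mod, hp, one_pow, Nat.one_mod]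

end CfsgLib.G2Cover
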