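import Cfsg.Agent.G2Oct.Descent

/-!
The parabolic of `G₂` fixing a singular line: its unipotent radical, its opposite and the Levi
subgroup `GL₂`, and semisimple elements of the Levi subgroup without fixed points on the radical.
-/

set_option autoImplicit false
set_option maxHeartbeats 1000000

namespace CfsgLib.G2Cover

open Matrix Cfsg.Lie CfsgLib.G2Oct

variable {F : Type*} [Field F]

local notation "M2" => Matrix (Fin 2) (Fin 2) F

/-- The degree of a coordinate. -/
def deg : Fin 8 → ℤ := ![0, 2, -1, -1, -2, 1, 1, 0]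

/-- Unitriangular for the degree. -/
def DegUni (M : Matrix (Fin 8) (Fin 8) F) : Prop :=
  ∀ i j, deg i ≤ deg j → M i j = (1 : Matrix (Fin 8) (Fin 8) F) i j

theorem DegUni.mul {M N : Matrix (Fin 8) (Fin 8) F} (hM : DegUni M) (hN : DegUni N) :
    DegUni (M * N) := by
  intro i j h
  rw [Matrix.mul_apply, Finset.sum_eq_single i]
  · rw [hM i i le_rfl, one_apply_eq, one_mul, hN i j h]
  · intro k _ hk
    rcases le_or_gt (deg i) (deg k) with h1 | h1
    · rw [hM i k h1, one_apply_ne (Ne.symm hk), zero_mul]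
    · rw [hN k j (h1.le.trans h), one_apply_ne, mul_zero]
      rintro rfl
      exact absurd (h.trans_lt' h1) (lt_irrefl _)
  · exact fun h' => absurd (Finset.mem_univ i) h'

variable [Fintype F]

/-- The unipotent radical. -/
noncomputable def Rad (F : Type*) [Field F] [Fintype F] : Subgroup ↥(G2 F) where
  carrier := {g | DegUni (g2Mat g)}
  one_mem' := fun i j _ => by rw [g2Mat_one]
  mul_mem' := fun {a b} ha hb => by
    show DegUni (g2Mat (a * b))
    rw [g2Mat_mul]; exact DegUni.mul ha hb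
  inv_mem' := fun {a} ha => by
    have hp : ∀ n : ℕ, DegUni (g2Mat (a ^ n)) := by
      intro n
      induction n with
      | zero => rw [pow_zero, g2Mat_one]; exact fun i j _ => rfl
      | succ n ih => rw [pow_succ, g2Mat_mul]; exact ih.mul ha
    have he : a⁻¹ = a ^ (orderOf a - 1) := by
      refine inv_eq_of_mul_eq_one_right ?_
      rw [← pow_succ', Nat.sub_add_cancel (orderOf_pos a), pow_orderOf_eq_one]
    show DegUni (g2Mat a⁻¹)
    rw [he]; exact hp _

theorem mem_Rad {g : ↥(G2 F)} : g ∈ Rad F ↔ DegUni (g2Mat g) := Iff.rfl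

/-- The opposite radical. -/
noncomputable def RadNeg (F : Type*) [Field F] [Fintype F] : Subgroup ↥(G2 F) :=
  (Rad F).comap (MulAut.conj (swapEl : ↥(G2 F))).toMonoidHom

theorem mem_RadNeg {g : ↥(G2 F)} : g ∈ RadNeg F ↔ swapEl * g * swapEl ∈ Rad F := by
  have h : (swapEl : ↥(G2 F))⁻¹ = swapEl := inv_eq_of_mul_eq_one_right swapEl_mul_self
  simp [RadNeg, MulAut.conj_apply, h]

/-- `GL₂` inside `SL₃`, acting on the last two coordinates. -/
def leviMat (A : M2) : Matrix (Fin 3) (Fin 3) F :=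
  !![(A.det)⁻¹, 0, 0; 0, A 0 0, A 0 1; 0, A 1 0, A 1 1]

theorem det_ne_zero_gl (A : GL (Fin 2) F) : A.1.det ≠ 0 :=
  ((Matrix.isUnit_iff_isUnit_det _).1 A.isUnit).ne_zero

omit [Fintype F] in
/-- `GL₂` inside `SL₃`. -/
def leviSl : GL (Fin 2) F →* Matrix.SpecialLinearGroup (Fin 3) F where
  toFun A := ⟨leviMat A.1, by
    have h := det_ne_zero_gl A
    rw [leviMat, det_fin_three]
    simp only [of_apply, cons_val', cons_val_zero, cons_val_one, cons_val, empty_val', cons_val_fin_one]
    rw [det_fin_two] at h ⊢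
    field_simp
    ring⟩
  map_one' := Subtype.ext (show leviMat 1 = 1 by
    ext i j; fin_cases i <;> fin_cases j <;> simp [leviMat])
  map_mul' A B := Subtype.ext (show leviMat (A * B : GL (Fin 2) F).1 = leviMat A.1 * leviMat B.1 by
    ext i j
    fin_cases i <;> fin_cases j <;>
      simp [leviMat, Matrix.mul_apply, Fin.sum_univ_three, Fin.sum_univ_two, mul_comm])

/-- The Levi subgroup. -/
noncomputable def levi : GL (Fin 2) F →* ↥(G2 F) := sl3G2.comp leviSl

/-- The matrix of an element of the Levi subgroup. -/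
def leviMat8 (p q r s : F) : Matrix (Fin 8) (Fin 8) F :=
  let d := (p * s - q * r)⁻¹
  !![1, 0, 0, 0, 0, 0, 0, 0; 0, d, 0, 0, 0, 0, 0, 0; 0, 0, p, q, 0, 0, 0, 0; 0, 0, r, s, 0, 0, 0, 0;
    0, 0, 0, 0, p * s - q * r, 0, 0, 0; 0, 0, 0, 0, 0, d * s, -(d * r), 0;
    0, 0, 0, 0, 0, -(d * q), d * p, 0; 0, 0, 0, 0, 0, 0, 0, 1]

theorem g2Mat_levi (A : GL (Fin 2) F) :
    g2Mat (levi A) = leviMat8 (A.1 0 0) (A.1 0 1) (A.1 1 0) (A.1 1 1) := by
  refine Matrix.ext_iff_mulVec.2 fun x => ?_
  have h := det_ne_zero_gl A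
  rw [det_fin_two] at h
  show g2Mat (sl3G2 (leviSl A)) *ᵥ x = _
  rw [sl3G2_mulVec]
  conv_lhs => rw [← zMk_parts x, sl3Lin_apply, Matrix.SpecialLinearGroup.coe_inv]
  funext i
  fin_cases i <;>
    simp [leviMat8, show (leviSl A).1 = leviMat A.1 from rfl, leviMat, zMk, zA, zB, mulVec, dotProduct,
      Fin.sum_univ_eight, Fin.sum_univ_three, adjugate_fin_three, det_fin_two] <;> field_simp <;> ring

theorem leviMat8_deg (p q r s : F) {i j : Fin 8} (h : deg i ≠ deg j) : leviMat8 p q r s i j = 0 := by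
  fin_cases i <;> fin_cases j <;> first | rfl | exact absurd rfl h | simp [leviMat8]

theorem levi_conj_mem (A : GL (Fin 2) F) {u : ↥(G2 F)} (hu : u ∈ Rad F) :
    levi A * u * (levi A)⁻¹ ∈ Rad F := by
  intro i j h
  rw [g2Mat_mul, g2Mat_mul, ← map_inv]
  have key : g2Mat (levi A) * g2Mat u * g2Mat (levi A⁻¹) =
      g2Mat (levi A) * (g2Mat u - 1) * g2Mat (levi A⁻¹) + 1 := by
    rw [mul_sub, sub_mul, mul_one, map_inv, g2Mat_mul_inv, sub_add_cancel]
  rw [key, Matrix.add_apply, g2Mat_levi, g2Mat_levi, Matrix.mul_apply]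
  refine add_eq_right.2 (Finset.sum_eq_zero fun m _ => ?_)
  by_cases hm : deg m = deg j
  · rw [Matrix.mul_apply, Finset.sum_eq_zero, zero_mul]
    intro k _
    by_cases hk : deg i = deg k
    · rw [Matrix.sub_apply, hu k m (hk ▸ hm.symm ▸ h), sub_self, mul_zero]
    · rw [leviMat8_deg _ _ _ _ hk, zero_mul]
  · rw [leviMat8_deg _ _ _ _ hm, mul_zero]

/-- The transposed inverse. -/
noncomputable def tinv (A : GL (Fin 2) F) : GL (Fin 2) F :=
  Matrix.GeneralLinearGroup.mkOfDetNeZero ((A⁻¹).1ᵀ) (by rw [det_transpose]; exact det_ne_zero_gl _)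

theorem swap_levi (A : GL (Fin 2) F) : swapEl * levi A * swapEl = levi (tinv A) := by
  refine swap_sl3 (leviSl A) (leviSl (tinv A)) ?_
  rw [← map_inv]
  show leviMat ((A⁻¹).1ᵀ) = (leviMat (A⁻¹).1)ᵀ
  ext i j
  fin_cases i <;> fin_cases j <;> simp [leviMat]

theorem levi_conj_memNeg (A : GL (Fin 2) F) {u : ↥(G2 F)} (hu : u ∈ RadNeg F) :
    levi A * u * (levi A)⁻¹ ∈ RadNeg F := by
  rw [mem_RadNeg] at hu ⊢
  have h : (swapEl : ↥(G2 F))⁻¹ = swapEl := inv_eq_of_mul_eq_one_right swapEl_mul_self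
  have e : swapEl * (levi A * u * (levi A)⁻¹) * swapEl =
      (swapEl * levi A * swapEl) * (swapEl * u * swapEl) * (swapEl * levi A * swapEl)⁻¹ := by
    rw [_root_.mul_inv_rev, _root_.mul_inv_rev, h]
    simp only [mul_assoc]
    rw [← mul_assoc swapEl swapEl, swapEl_mul_self, one_mul, ← mul_assoc swapEl swapEl, swapEl_mul_self,
      one_mul]
  rw [e, swap_levi]
  exact levi_conj_mem _ hu

/-- The conditions on trace and determinant for a fixed-point-free action. -/
def FreeCond (t d : F) : Prop := d ≠ 1 ∧ 1 - t + d ≠ 0 ∧ d ^ 3 - t * d + 1 ≠ 0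

theorem eq_zero_pair {a b c e x y : F} (hdet : a * e - b * c ≠ 0) (h1 : a * x + b * y = 0)
    (h2 : c * x + e * y = 0) : x = 0 ∧ y = 0 :=
  ⟨(mul_eq_zero.1 (show (a * e - b * c) * x = 0 by linear_combination e * h1 - b * h2)).resolve_left hdet,
    (mul_eq_zero.1 (show (a * e - b * c) * y = 0 by linear_combination a * h2 - c * h1)).resolve_left hdet⟩

theorem eq_one_of_commute (A : GL (Fin 2) F) (hc : FreeCond A.1.trace A.1.det) {u : ↥(G2 F)}
    (hu : u ∈ Rad F) (hcm : u * levi A = levi A * u) : u = 1 := by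
  obtain ⟨hd1, hd2, hd3⟩ := hc
  have hD := det_ne_zero_gl A
  rw [det_fin_two] at hD hd1 hd2 hd3
  rw [trace_fin_two] at hd2 hd3
  set p := A.1 0 0
  set q := A.1 0 1
  set r := A.1 1 0
  set s := A.1 1 1
  obtain ⟨d, hd⟩ : ∃ d, d * (p * s - q * r) = 1 := ⟨(p * s - q * r)⁻¹, inv_mul_cancel₀ hD⟩
  have hdinv : (p * s - q * r)⁻¹ = d := inv_eq_of_mul_eq_one_left hd
  set M := g2Mat u with hM
  have hmat : M * leviMat8 p q r s = leviMat8 p q r s * M := by
    have := congrArg g2Mat hcm
    rwa [g2Mat_mul, g2Mat_mul, g2Mat_levi] at this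
  have hz : ∀ i j, deg i ≤ deg j → i ≠ j → M i j = 0 := fun i j h hij => by
    rw [hM, hu i j h, one_apply_ne hij]
  have hdiag : ∀ i, M i i = 1 := fun i => by rw [hM, hu i i le_rfl, one_apply_eq]
  have E : ∀ i j, (M * leviMat8 p q r s) i j = (leviMat8 p q r s * M) i j := fun i j => by rw [hmat]
  have e1 := E 1 5; have e2 := E 1 6
  have e3 := E 5 0; have e4 := E 6 0; have e5 := E 5 7; have e6 := E 6 7
  have e7 := E 0 2; have e8 := E 0 3; have e9 := E 7 2; have e10 := E 7 3
  have e11 := E 2 4; have e12 := E 3 4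
  have e13 := E 1 0; have e14 := E 1 7; have e15 := E 0 4; have e16 := E 7 4
  simp [Matrix.mul_apply, Fin.sum_univ_eight, leviMat8, hdinv] at e1 e2 e3 e4 e5 e6 e7 e8 e9 e10 e11 e12 e13 e14 e15 e16
  have hA1 : (s - 1) * (p - 1) - q * r ≠ 0 := fun h => hd2 (by linear_combination h)
  have h15 : M 1 5 = 0 ∧ M 1 6 = 0 := by
    refine eq_zero_pair (a := s - 1) (b := -q) (c := -r) (e := p - 1) (fun h => hA1 (by linear_combination h)) ?_ ?_
    · linear_combination (p * s - q * r) * e1 - ((s - 1) * M 1 5 - q * M 1 6) * hd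
    · linear_combination (p * s - q * r) * e2 - (-r * M 1 5 + (p - 1) * M 1 6) * hd
  have hA' : (d * s - 1) * (d * p - 1) - (-(d * r)) * (-(d * q)) ≠ 0 := fun h => hd2 (by
    linear_combination (p * s - q * r) * h -
      (d * (p * s - q * r) + 1 - (p + s)) * hd)
  have h50 : M 5 0 = 0 ∧ M 6 0 = 0 :=
    eq_zero_pair hA' (by linear_combination -e3) (by linear_combination -e4)
  have h57 : M 5 7 = 0 ∧ M 6 7 = 0 :=
    eq_zero_pair hA' (by linear_combination -e5) (by linear_combination -e6)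
  have hA2 : (p - 1) * (s - 1) - r * q ≠ 0 := fun h => hd2 (by linear_combination h)
  have h02 : M 0 2 = 0 ∧ M 0 3 = 0 :=
    eq_zero_pair hA2 (by linear_combination e7) (by linear_combination e8)
  have h72 : M 7 2 = 0 ∧ M 7 3 = 0 :=
    eq_zero_pair hA2 (by linear_combination e9) (by linear_combination e10)
  have h24 : M 2 4 = 0 ∧ M 3 4 = 0 := by
    refine eq_zero_pair (a := p - (p * s - q * r)) (b := q) (c := r) (e := s - (p * s - q * r))
      (fun h => ?_) (by linear_combination -e11) (by linear_combination -e12)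
    exact hd2 ((mul_eq_zero.1 (show (p * s - q * r) * (1 - (p + s) + (p * s - q * r)) = 0 by
      linear_combination h)).resolve_left hD)
  have hdne : d ≠ 1 := fun h => hd1 (by rw [h, one_mul] at hd; exact hd)
  have hz' : ∀ {x : F}, x * d = x → x = 0 := fun {x} h =>
    (mul_eq_zero.1 (show x * (d - 1) = 0 by linear_combination h)).resolve_right (sub_ne_zero.2 hdne)
  have h10 : M 1 0 = 0 := hz' (by linear_combination -e13)
  have h17 : M 1 7 = 0 := hz' (by linear_combination -e14)
  have hz'' : ∀ {x : F}, x * (p * s - q * r) = x → x = 0 := fun {x} h =>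
    (mul_eq_zero.1 (show x * (p * s - q * r - 1) = 0 by linear_combination h)).resolve_right
      (sub_ne_zero.2 hd1)
  have h04 : M 0 4 = 0 := hz'' (by linear_combination e15)
  have h74 : M 7 4 = 0 := hz'' (by linear_combination e16)
  -- the skew block
  have hcol : ∀ j, g2Mat u *ᵥ Pi.single j 1 = fun i => M i j := fun j => by
    rw [Matrix.mulVec_single_one]; rfl
  have q2 := octQ_g2Mat u (Pi.single 2 1)
  have q3 := octQ_g2Mat u (Pi.single 3 1)
  have b23 := octB_g2Mat u (Pi.single 2 1) (Pi.single 3 1)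
  rw [hcol] at q2 q3
  rw [hcol, hcol] at b23
  simp [octB, octQ, Pi.single_apply, hdiag, h02.1, h02.2, h72.1, h72.2,
    hz _ _ (show deg 4 ≤ deg 2 by decide) (by decide), hz _ _ (show deg 3 ≤ deg 2 by decide) (by decide),
    hz _ _ (show deg 4 ≤ deg 3 by decide) (by decide), hz _ _ (show deg 2 ≤ deg 3 by decide) (by decide)] at q2 q3 b23
  have h52 : M 5 2 = 0 := by linear_combination q2
  have h63 : M 6 3 = 0 := by linear_combination q3
  have h53 : M 5 3 = -M 6 2 := by linear_combination -b23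
  have e17 := E 6 2; have e18 := E 6 3; have e19 := E 5 2
  simp [Matrix.mul_apply, Fin.sum_univ_eight, leviMat8, hdinv, h52, h63, h53,
    hz _ _ (show deg 2 ≤ deg 2 by decide)] at e17 e18 e19
  have h62 : M 6 2 = 0 := by
    by_contra hk
    have hp : M 6 2 * (1 - d) * p = 0 := by linear_combination e17
    have hq : M 6 2 * (1 - d) * q = 0 := by linear_combination e18
    have hr : M 6 2 * (1 - d) * r = 0 := by linear_combination e19
    have hne : M 6 2 * (1 - d) ≠ 0 := mul_ne_zero hk (sub_ne_zero.2 (Ne.symm hdne))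
    rw [(mul_eq_zero.1 hp).resolve_left hne, (mul_eq_zero.1 hq).resolve_left hne,
      (mul_eq_zero.1 hr).resolve_left hne] at hD
    simp at hD
  rw [h62, neg_zero] at h53
  -- the top blocks
  have e20 := E 1 2; have e21 := E 1 3; have e22 := E 5 4; have e23 := E 6 4
  simp [Matrix.mul_apply, Fin.sum_univ_eight, leviMat8, hdinv, h15.1, h15.2, h10, h17, h52, h63, h53, h62,
    h24.1, h24.2, hz _ _ (show deg 5 ≤ deg 6 by decide)] at e20 e21 e22 e23
  have h12 : M 1 2 = 0 ∧ M 1 3 = 0 := by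
    refine eq_zero_pair (a := p - d) (b := r) (c := q) (e := s - d) (fun h => hd3 ?_)
      (by linear_combination e20) (by linear_combination e21)
    linear_combination (p * s - q * r) ^ 2 * h +
      ((p + s) * (p * s - q * r) - (d * (p * s - q * r) + 1)) * hd
  have h54 : M 5 4 = 0 ∧ M 6 4 = 0 := by
    refine eq_zero_pair (a := d * s - (p * s - q * r)) (b := -(d * r)) (c := -(d * q))
      (e := d * p - (p * s - q * r)) (fun h => hd3 ?_) (by linear_combination -e22)
      (by linear_combination -e23)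
    linear_combination (p * s - q * r) * h -
      (d * (p * s - q * r) + 1 - (p + s) * (p * s - q * r)) * hd
  have q4 := octQ_g2Mat u (Pi.single 4 1)
  rw [hcol] at q4
  simp [octQ, Pi.single_apply, hdiag, h24.1, h24.2, h54.1, h54.2, h04, h74] at q4
  refine g2Mat_injective ?_
  rw [g2Mat_one, ← hM]
  ext i j
  rcases le_or_gt (deg i) (deg j) with h | h
  · exact hu i j h
  · fin_cases i <;> fin_cases j <;>
      first
        | (exfalso; revert h; decide)
        | simp [one_apply, h15.1, h15.2, h50.1, h50.2, h57.1, h57.2, h02.1, h02.2, h72.1, h72.2, h24.1,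
            h24.2, h10, h17, h04, h74, h52, h53, h62, h63, h12.1, h12.2, h54.1, h54.2, q4]

theorem tinv_cond (A : GL (Fin 2) F) (hc : FreeCond A.1.trace A.1.det) :
    FreeCond (tinv A).1.trace (tinv A).1.det := by
  have hD := det_ne_zero_gl A
  have htv : (tinv A).1.trace = A.1.trace / A.1.det ∧ (tinv A).1.det = A.1.det⁻¹ := by
    show ((A⁻¹).1ᵀ).trace = _ ∧ ((A⁻¹).1ᵀ).det = _
    rw [trace_transpose, det_transpose, Matrix.coe_units_inv, Matrix.inv_def, trace_smul, det_smul,
      det_adjugate, Fintype.card_fin, Ring.inverse_eq_inv', smul_eq_mul, adjugate_fin_two]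
    constructor
    · simp [trace_fin_two]; ring
    · norm_num
      field_simp
  obtain ⟨h1, h2, h3⟩ := hc
  rw [htv.1, htv.2]
  refine ⟨fun h => h1 (inv_eq_one.1 h), fun h => h2 ?_, fun h => h3 ?_⟩
  · field_simp at h; linear_combination h
  · field_simp at h; linear_combination h

theorem eq_one_of_commuteNeg (A : GL (Fin 2) F) (hc : FreeCond A.1.trace A.1.det) {u : ↥(G2 F)}
    (hu : u ∈ RadNeg F) (hcm : u * levi A = levi A * u) : u = 1 := by
  have key : swapEl * u * swapEl = (1 : ↥(G2 F)) := by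
    refine eq_one_of_commute (tinv A) (tinv_cond A hc) (mem_RadNeg.1 hu) ?_
    rw [← swap_levi]
    calc swapEl * u * swapEl * (swapEl * levi A * swapEl)
        = swapEl * (u * (swapEl * swapEl) * levi A) * swapEl := by group
      _ = swapEl * (u * levi A) * swapEl := by rw [swapEl_mul_self, mul_one]
      _ = swapEl * (levi A * u) * swapEl := by rw [hcm]
      _ = swapEl * (levi A * (swapEl * swapEl) * u) * swapEl := by rw [swapEl_mul_self, mul_one]
      _ = swapEl * levi A * swapEl * (swapEl * u * swapEl) := by group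
  calc u = swapEl * swapEl * u * (swapEl * swapEl) := by rw [swapEl_mul_self, one_mul, mul_one]
    _ = swapEl * (swapEl * u * swapEl) * swapEl := by group
    _ = 1 := by rw [key, mul_one, swapEl_mul_self]

/-- A fixed-point-free normalising element is conjugate to each of its translates. -/
theorem exists_conj_eq_mul {G : Type*} [Group G] [Finite G] (U : Subgroup G) (a : G)
    (hn : ∀ u ∈ U, a * u * a⁻¹ ∈ U) (hfree : ∀ u ∈ U, u * a = a * u → u = 1) {s : G} (hs : s ∈ U) :
    ∃ t ∈ U, t * a * t⁻¹ = s * a := by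
  let f : U → U := fun t => ⟨(t : G) * (a * (t : G)⁻¹ * a⁻¹), mul_mem t.2 (hn _ (inv_mem t.2))⟩
  have hinj : Function.Injective f := by
    intro t t' h
    have h' : (t : G) * (a * (t : G)⁻¹ * a⁻¹) = (t' : G) * (a * (t' : G)⁻¹ * a⁻¹) := congrArg Subtype.val h
    have h1 : (t : G) * a * (t : G)⁻¹ = (t' : G) * a * (t' : G)⁻¹ := by
      have := congrArg (· * a) h'
      simpa [mul_assoc] using this
    have h2 : ((t' : G)⁻¹ * t) * a = a * ((t' : G)⁻¹ * t) := by
      calc ((t' : G)⁻¹ * t) * a = (t' : G)⁻¹ * ((t : G) * a * (t : G)⁻¹) * t := by group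
        _ = (t' : G)⁻¹ * ((t' : G) * a * (t' : G)⁻¹) * t := by rw [h1]
        _ = _ := by group
    exact Subtype.ext (inv_mul_eq_one.1 (hfree _ (mul_mem (inv_mem t'.2) t.2) h2)).symm
  obtain ⟨t, ht⟩ := Finite.surjective_of_injective hinj ⟨s, hs⟩
  refine ⟨t, t.2, ?_⟩
  rw [← show (t : G) * (a * (t : G)⁻¹ * a⁻¹) = s from congrArg Subtype.val ht]
  group

end CfsgLib.G2Cover
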